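import Mathlib
import Cfsg.Agent.Lib.Helper6.BrauerFeit
import Cfsg.Agent.Lib.Helper1.CharGalois

set_option autoImplicit false

namespace Cfsg.Agent.Lib.Helper6

open Cfsg Cfsg.Agent.Lib.Helper1 Cfsg.Agent.Lib.Helper24
open scoped ComplexConjugate

universe u

/-- Burnside: a faithful irreducible character of a group with trivial centre vanishes at every
non-identity element whose class size is coprime to the degree. -/
theorem char_eq_zero_of_coprime_faithful {G : Type u} [Group G] [Finite G] (χ : IrrCharacter G)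
    (hZ : Subgroup.center G = ⊥) (hfaith : ∀ g : G, (χ : G → ℂ) g = (χ : G → ℂ) 1 → g = 1)
    (z : G) (hz : z ≠ 1)
    (hcop : Nat.Coprime (charDegree (χ : G → ℂ)) (Subgroup.centralizer ({z} : Set G)).index) :
    (χ : G → ℂ) z = 0 := by
  obtain ⟨n, ρ, hρ, hχ⟩ := χ.2
  haveI := hρ
  have hfr : Module.finrank ℂ (Fin n → ℂ) = charDegree (χ : G → ℂ) := by
    have h1 := CharBasic.char_one_nat (IsIrrCharacter.isCharacter χ.2)
    rw [← hχ, Representation.char_one] at h1
    rw [← hχ]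
    exact_mod_cast h1
  have hinj : Function.Injective ρ := by
    intro x y hxy
    have h1 : ρ (x * y⁻¹) = LinearMap.id := by
      rw [map_mul, hxy, ← map_mul, mul_inv_cancel, map_one]
      rfl
    have h2 : ρ.character (x * y⁻¹) = (Module.finrank ℂ (Fin n → ℂ) : ℂ) :=
      (char_eq_finrank_iff ρ _).mpr h1
    have h3 : (χ : G → ℂ) (x * y⁻¹) = (χ : G → ℂ) 1 := by
      rw [← hχ, h2, Representation.char_one]
    exact mul_inv_eq_one.mp (hfaith _ h3)
  rcases char_zero_or_norm_of_coprime ρ z (by rw [hfr]; exact hcop) with h | h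
  · rw [← hχ]
    exact h
  · exfalso
    obtain ⟨ω, hω⟩ := (norm_char_eq_iff ρ z).mp h
    apply hz
    have hzc : z ∈ Subgroup.center G := by
      rw [Subgroup.mem_center_iff]
      intro h'
      apply hinj
      rw [map_mul, map_mul, hω]
      ext v
      simp
    rw [hZ] at hzc
    exact Subgroup.mem_bot.mp hzc

variable {G : Type u} [Group G] [Fintype G] {M : Ideal AlgInt}

/-- If `χ` vanishes on the non-identity elements of a `p`-subgroup `Z` whose elements have
class sizes prime to `p`, every character in the block of `χ` has degree divisible by `|Z|`. -/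
theorem le_degree_factorization_of_vanish {p : ℕ} [Fact p.Prime] (hM : IsPModular p M)
    (Z : Subgroup G) (b : ℕ) (hZcard : Nat.card Z = p ^ b) (χ ψ : IrrCharacter G)
    (hsame : SameBlock M (χ : G → ℂ) (ψ : G → ℂ))
    (hvan : ∀ z ∈ Z, z ≠ 1 → (χ : G → ℂ) z = 0)
    (hcl : ∀ z ∈ Z, ¬ p ∣ (Subgroup.centralizer ({z} : Set G)).index) :
    b ≤ (charDegree (ψ : G → ℂ)).factorization p := by
  classical
  have hp := (Fact.out : p.Prime)
  have hmax := hM.2.1
  by_contra hlt
  push_neg at hlt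
  obtain ⟨v, hv⟩ : ∃ v, v = (charDegree (ψ : G → ℂ)).factorization p := ⟨_, rfl⟩
  rw [← hv] at hlt
  have hd0 : charDegree (ψ : G → ℂ) ≠ 0 := (CharBasic.irr_degree_pos ψ.2).ne'
  obtain ⟨e, he⟩ : ∃ e : ℕ, charDegree (ψ : G → ℂ) = p ^ v * e := by
    rw [hv]
    exact ⟨_, (Nat.ordProj_mul_ordCompl_eq_self _ p).symm⟩
  have hpe : ¬ p ∣ e := by
    intro hdvd
    have h1 : p ^ (v + 1) ∣ charDegree (ψ : G → ℂ) := by
      rw [he, pow_succ]
      exact Nat.mul_dvd_mul_left _ hdvd
    rw [hp.pow_dvd_iff_le_factorization hd0] at h1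
    omega
  have hψ1 : (ψ : G → ℂ) 1 = ((p ^ v * e : ℕ) : ℂ) := by
    rw [CharBasic.char_one_nat (IsIrrCharacter.isCharacter ψ.2), he]
  have hψ1ne : (ψ : G → ℂ) 1 ≠ 0 := irr_one_ne_zero ψ.2
  -- the sum over Z
  obtain ⟨c, hc⟩ := IsCharacter.classInner_nat
    (IsCharacter.restrict (IsIrrCharacter.isCharacter ψ.2) Z) (isCharacter_one (G := Z))
  have hsum : ∑ z : Z, (ψ : G → ℂ) z = ((p ^ b : ℕ) : ℂ) * (c : ℂ) := by
    unfold classInner at hc
    simp only [map_one, mul_one] at hc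
    rw [← hc, ← mul_assoc, hZcard, mul_inv_cancel₀, one_mul]
    have h2 : 0 < p ^ b := pow_pos hp.pos _
    exact_mod_cast h2.ne'
  -- ratios lie in the local ideal
  have hr : ∀ z : Z, z ≠ 1 → MemLocalIdeal M ((ψ : G → ℂ) z / (ψ : G → ℂ) 1) := by
    intro z hz
    have hzG : (z : G) ≠ 1 := fun h => hz (Subtype.ext h)
    have h1 := hsame (z : G)
    unfold centralChar at h1
    rw [hvan z z.2 hzG, mul_zero, zero_div, zero_sub] at h1
    have h2 := MemLocalIdeal.neg h1
    rw [neg_neg] at h2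
    have h3 := MemLocalIdeal.mul_left hmax (memLocalRing_inv_natCast hM (hcl z z.2)) h2
    have hidx : ((Subgroup.centralizer ({(z : G)} : Set G)).index : ℂ) ≠ 0 := by
      intro h0
      have h4 : (Subgroup.centralizer ({(z : G)} : Set G)).index = 0 := by exact_mod_cast h0
      exact hcl z z.2 (by rw [h4]; exact dvd_zero p)
    have e1 : ((Subgroup.centralizer ({(z : G)} : Set G)).index : ℂ)⁻¹ *
        (((Subgroup.centralizer ({(z : G)} : Set G)).index : ℂ) * (ψ : G → ℂ) z / (ψ : G → ℂ) 1)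
        = (ψ : G → ℂ) z / (ψ : G → ℂ) 1 := by
      field_simp
    rwa [e1] at h3
  obtain ⟨ε, hε⟩ : ∃ ε : ℂ, ε = ∑ z ∈ Finset.univ.erase (1 : Z),
      (ψ : G → ℂ) z / (ψ : G → ℂ) 1 := ⟨_, rfl⟩
  have hεJ : MemLocalIdeal M ε := by
    rw [hε]
    apply memLocalIdeal_sum hmax
    intro z hz
    exact hr z (Finset.ne_of_mem_erase hz)
  have hsum2 : ∑ z : Z, (ψ : G → ℂ) z = (ψ : G → ℂ) 1 * (1 + ε) := by
    rw [← Finset.add_sum_erase Finset.univ _ (Finset.mem_univ (1 : Z)), hε, mul_add, mul_one,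
      Finset.mul_sum]
    congr 1
    apply Finset.sum_congr rfl
    intro z _
    field_simp
  rw [hsum, hψ1] at hsum2
  -- cancel p^v
  obtain ⟨k, hk⟩ : ∃ k, b = v + 1 + k := ⟨b - v - 1, by omega⟩
  have hpv : ((p ^ v : ℕ) : ℂ) ≠ 0 := by
    have h2 : 0 < p ^ v := pow_pos hp.pos _
    exact_mod_cast h2.ne'
  have key : (e : ℂ) = (p : ℂ) * ((p ^ k * c : ℕ) : ℂ) - (e : ℂ) * ε := by
    apply mul_left_cancel₀ hpv
    have h1 : ((p ^ b : ℕ) : ℂ) = ((p ^ v : ℕ) : ℂ) * ((p : ℂ) * ((p ^ k : ℕ) : ℂ)) := by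
      rw [hk]
      push_cast
      ring
    rw [h1] at hsum2
    push_cast at hsum2 ⊢
    linear_combination (-1 : ℂ) * hsum2
  have hJ : MemLocalIdeal M (e : ℂ) := by
    rw [key]
    apply MemLocalIdeal.sub hmax
    · exact MemLocalIdeal.mul_right hmax (memLocalIdeal_natCast_prime hM)
        (memLocalRing_natCast hmax _)
    · exact MemLocalIdeal.mul_left hmax (memLocalRing_natCast hmax e) hεJ
  exact hpe ((memLocalIdeal_natCast_iff hM e).mp hJ)

end Cfsg.Agent.Lib.Helper6
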