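import Mathlib
import Cfsg.Prelude.Def_Blocks
import Cfsg.Agent.Lib.Helper6.Rot
import Cfsg.Agent.Lib.Helper6.Nilp
import Cfsg.Agent.Lib.Helper6.Third
import Cfsg.Agent.Lib.Helper6.OddNormal
import Cfsg.Agent.Lib.Helper6.BlockVanish
import Cfsg.Agent.Lib.Helper24.Gal
import Cfsg.Agent.Lib.Helper24.DefectGroup
import Cfsg.Agent.Lib.Helper10.CycGal
import Cfsg.Agent.Lib.Helper1.CharInd

set_option autoImplicit false
set_option linter.unusedSectionVars false
set_option linter.unusedVariables false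

/-!
# Külshammer's formula for the principal block idempotent

The coefficient of a `p`-regular element `g` in the principal block idempotent is congruent,
modulo the local ideal, to the number of pairs `(x, y)` of a `p`-element `x` and a `p`-regular
element `y` with `x y = g`, divided by the number of `p`-regular elements.
-/

namespace Cfsg.Agent.Lib.Helper6

open Cfsg
open scoped ComplexConjugate

universe u

variable {G : Type u} [Group G] [Fintype G] {M : Ideal AlgInt}

theorem cpow_idem {e : G → ℂ} (he : cconv e e = e) (n : ℕ) : cpow e (n + 1) = e := by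
  induction n with
  | zero =>
    show cconv e (cdelta : G → ℂ) = e
    exact cconv_cdelta e
  | succ n ih =>
    show cconv e (cpow e (n + 1)) = e
    rw [ih, he]

theorem add_pow_sub_mem {p : ℕ} (hM : IsPModular p M) {x y : ℂ} (hx : MemLocalRing M x)
    (hy : MemLocalRing M y) (n : ℕ) :
    MemLocalIdeal M ((x + y) ^ (p ^ n) - (x ^ (p ^ n) + y ^ (p ^ n))) := by
  have hp := hM.1
  have hmax := hM.2.1
  rw [add_pow_prime_pow_eq' hp, add_sub_cancel_left]
  apply MemLocalIdeal.mul_right hmax (memLocalIdeal_natCast_prime hM)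
  apply memLocalRing_sum hmax
  intro k _
  exact MemLocalRing.mul hmax (MemLocalRing.mul hmax (MemLocalRing.pow hmax hx _)
    (MemLocalRing.pow hmax hy _)) (memLocalRing_natCast hmax _)

/-- A rational local integer is fixed by the Frobenius map modulo the local ideal. -/
theorem pow_prime_sub_self_mem {p : ℕ} [Fact p.Prime] (hM : IsPModular p M) {y : ℂ}
    (hy : MemLocalRing M y) (z : ℤ) (c : ℕ) (hc : c ≠ 0) (hyz : y * (c : ℂ) = (z : ℂ)) :
    MemLocalIdeal M (y ^ p - y) := by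
  have hp := (Fact.out : p.Prime)
  have hmax := hM.2.1
  obtain ⟨a, c', hc', rfl⟩ := Nat.exists_eq_pow_mul_and_not_dvd hc p hp.ne_one
  have hp0 : (p : ℂ) ≠ 0 := Nat.cast_ne_zero.mpr hp.ne_zero
  have hstep : ∀ (a : ℕ) (z : ℤ), y * ((p ^ a * c' : ℕ) : ℂ) = (z : ℂ) →
      ∃ A : ℤ, y * (c' : ℂ) = (A : ℂ) := by
    intro a
    induction a with
    | zero =>
      intro z hz
      refine ⟨z, ?_⟩
      rw [← hz]
      simp
    | succ a ih =>
      intro z hz
      have h1 : (z : ℂ) = (p : ℂ) * (y * ((p ^ a * c' : ℕ) : ℂ)) := by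
        rw [← hz]
        push_cast
        ring
      have h2 : MemLocalIdeal M (z : ℂ) := by
        rw [h1]
        exact MemLocalIdeal.mul_right hmax (memLocalIdeal_natCast_prime hM)
          (MemLocalRing.mul hmax hy (memLocalRing_natCast hmax _))
      obtain ⟨z₁, rfl⟩ := (memLocalIdeal_intCast_iff hM z).mp h2
      apply ih z₁
      have h3 : (p : ℂ) * (y * ((p ^ a * c' : ℕ) : ℂ)) = (p : ℂ) * (z₁ : ℂ) := by
        rw [← h1]
        push_cast
        ring
      exact mul_left_cancel₀ hp0 h3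
  obtain ⟨A, hA⟩ := hstep a z hyz
  have hc'0 : (c' : ℂ) ≠ 0 := by
    intro h
    apply hc'
    have : c' = 0 := by exact_mod_cast h
    rw [this]
    exact dvd_zero p
  have hdA : (p : ℤ) ∣ A ^ p - A := by
    rw [← ZMod.intCast_zmod_eq_zero_iff_dvd]
    push_cast
    rw [ZMod.pow_card, sub_self]
  have hdC : (p : ℤ) ∣ (c' : ℤ) ^ p - (c' : ℤ) := by
    rw [← ZMod.intCast_zmod_eq_zero_iff_dvd]
    push_cast
    rw [ZMod.pow_card, sub_self]
  have e : y ^ p - y = ((c' : ℂ)⁻¹) ^ p *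
      (((A ^ p - A : ℤ) : ℂ) - y * (((c' : ℤ) ^ p - (c' : ℤ) : ℤ) : ℂ)) := by
    have hinv : (c' : ℂ) ^ p * ((c' : ℂ)⁻¹) ^ p = 1 := by
      rw [← mul_pow, mul_inv_cancel₀ hc'0, one_pow]
    push_cast
    rw [← hA]
    linear_combination (-(y ^ p - y)) * hinv
  rw [e]
  apply MemLocalIdeal.mul_left hmax (MemLocalRing.pow hmax (memLocalRing_inv_natCast hM hc') p)
  apply MemLocalIdeal.sub hmax
  · exact (memLocalIdeal_intCast_iff hM _).mpr hdA
  · exact MemLocalIdeal.mul_left hmax hy ((memLocalIdeal_intCast_iff hM _).mpr hdC)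

theorem pow_prime_pow_sub_self_mem {p : ℕ} (hM : IsPModular p M) {y : ℂ}
    (hy : MemLocalRing M y) (h : MemLocalIdeal M (y ^ p - y)) (n : ℕ) :
    MemLocalIdeal M (y ^ (p ^ n) - y) := by
  have hp := hM.1
  have hmax := hM.2.1
  induction n with
  | zero =>
    rw [pow_zero, pow_one, sub_self]
    exact memLocalIdeal_zero hmax
  | succ n ih =>
    have h1 := add_pow_sub_mem hM hy (MemLocalIdeal.memLocalRing ih) 1
    rw [pow_one, add_sub_cancel] at h1
    have h2 : MemLocalIdeal M ((y ^ p ^ n - y) ^ p) := by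
      obtain ⟨D, hD⟩ : ∃ D : ℂ, D = y ^ p ^ n - y := ⟨_, rfl⟩
      rw [← hD] at ih ⊢
      have e2 : D ^ p = D ^ (p - 1) * D := by
        rw [← pow_succ, Nat.sub_add_cancel hp.pos]
      rw [e2]
      exact MemLocalIdeal.mul_left hmax
        (MemLocalRing.pow hmax (MemLocalIdeal.memLocalRing ih) _) ih
    have e : y ^ p ^ (n + 1) - y = ((y ^ p ^ n) ^ p - (y ^ p + (y ^ p ^ n - y) ^ p))
        + (y ^ p ^ n - y) ^ p + (y ^ p - y) := by
      rw [pow_succ, pow_mul]
      ring
    rw [e]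
    exact MemLocalIdeal.add hmax (MemLocalIdeal.add hmax h1 h2) h

open Classical in
/-- The coefficients of the principal block idempotent are rational. -/
theorem blockCoeff_principal_rat {p : ℕ} [Fact p.Prime] (hM : IsPModular p M) (g : G) :
    ∃ z : ℤ, blockCoeff (principalBlock M G) g = (z : ℂ) / (Nat.card G : ℂ) := by
  haveI hfinIrr : Fintype (IrrCharacter G) := Cfsg.Agent.Lib.Helper1.irrFintype
  obtain ⟨T, hT⟩ : ∃ T : Finset (IrrCharacter G),
      T = Finset.univ.filter (fun χ => χ ∈ principalBlock M G) := ⟨_, rfl⟩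
  have hmemT : ∀ χ : IrrCharacter G, χ ∈ T ↔ χ ∈ principalBlock M G := by
    intro χ
    rw [hT, Finset.mem_filter]
    exact ⟨fun h => h.2, fun h => ⟨Finset.mem_univ _, h⟩⟩
  obtain ⟨P, hP⟩ : ∃ P : G → ℂ, P = ∑ χ ∈ T,
      ∑ i ∈ Finset.range (charDegree (χ : G → ℂ)), (fun x => conj ((χ : G → ℂ) x)) := ⟨_, rfl⟩
  have hPc : IsCharacter G P := by
    rw [hP]
    apply Cfsg.Agent.Lib.Helper1.isCharacter_finset_sum
    intro χ _
    apply Cfsg.Agent.Lib.Helper1.isCharacter_finset_sum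
    intro i _
    exact Cfsg.Agent.Lib.Helper1.IsCharacter.conj
      (Cfsg.Agent.Lib.Helper24.CharBasic.isCharacter_of_irr χ.2)
  have hPv : ∀ x : G, P x = ∑ χ ∈ T, (χ : G → ℂ) 1 * conj ((χ : G → ℂ) x) := by
    intro x
    rw [hP, Finset.sum_apply]
    apply Finset.sum_congr rfl
    intro χ _
    rw [Finset.sum_apply, Finset.sum_const, Finset.card_range, nsmul_eq_mul,
      Cfsg.Agent.Lib.Helper24.CharBasic.char_one_nat
        (Cfsg.Agent.Lib.Helper24.CharBasic.isCharacter_of_irr χ.2)]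
  have hinv : ∀ m : ℕ, m.Coprime (Nat.card G) → P (g ^ m) = P g := by
    intro m hm
    rw [hPv, hPv]
    have himg : T.image (Cfsg.Agent.Lib.Helper24.Gal.gal m hm) = T := by
      apply Finset.eq_of_subset_of_card_le
      · intro χ hχ
        obtain ⟨χ', hχ', rfl⟩ := Finset.mem_image.mp hχ
        exact (hmemT _).mpr
          (Cfsg.Agent.Lib.Helper24.Gal.gal_principal hM m hm χ' ((hmemT _).mp hχ'))
      · rw [Finset.card_image_of_injective _ (Cfsg.Agent.Lib.Helper24.Gal.gal_injective m hm)]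
    have h1 : ∑ χ ∈ T, (χ : G → ℂ) 1 * conj ((χ : G → ℂ) g)
        = ∑ χ ∈ T.image (Cfsg.Agent.Lib.Helper24.Gal.gal m hm),
            (χ : G → ℂ) 1 * conj ((χ : G → ℂ) g) := by
      rw [himg]
    rw [h1, Finset.sum_image (fun a _ b _ h => Cfsg.Agent.Lib.Helper24.Gal.gal_injective m hm h)]
    apply Finset.sum_congr rfl
    intro χ _
    rw [Cfsg.Agent.Lib.Helper24.Gal.gal_apply, Cfsg.Agent.Lib.Helper24.Gal.gal_apply, one_pow]
  obtain ⟨z, hz⟩ := Cfsg.Agent.Lib.Helper10.CycGal.char_int_of_pow_invariant hPc g hinv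
  refine ⟨z, ?_⟩
  rw [← hz, hPv, blockCoeff_eq, Finset.sum_apply, ← hT, Finset.sum_div]
  apply Finset.sum_congr rfl
  intro χ _
  rfl

open Classical in
/-- Külshammer's formula for the principal block idempotent. -/
theorem kulshammer {p : ℕ} [Fact p.Prime] (hM : IsPModular p M) (g : G)
    (hg : ¬ p ∣ orderOf g) :
    MemLocalIdeal M (blockCoeff (principalBlock M G) g -
      (Nat.card {xy : G × G // (∃ k : ℕ, orderOf xy.1 = p ^ k) ∧ ¬ p ∣ orderOf xy.2 ∧
        xy.1 * xy.2 = g} : ℂ) / (Nat.card {y : G // ¬ p ∣ orderOf y} : ℂ)) := by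
  have hp := (Fact.out : p.Prime)
  have hmax := hM.2.1
  haveI hfinIrr : Fintype (IrrCharacter G) := Cfsg.Agent.Lib.Helper1.irrFintype
  obtain ⟨e, he⟩ : ∃ e : G → ℂ, e = blockCoeff (principalBlock M G) := ⟨_, rfl⟩
  have hB : IsPBlock M (principalBlock M G) :=
    Cfsg.Agent.Lib.Helper24.DefectGroup.isPBlock_principal
  have heS : SVal M e := by
    rw [he]
    exact fun x => osima' hmax _ hB x
  have hecl : IsClassFunction G e := by
    rw [he]
    exact isClassFunction_blockCoeff _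
  have heidem : cconv e e = e := by
    rw [he]
    exact blockCoeff_idem _
  obtain ⟨mN, hmN⟩ : ∃ mN : ℕ,
      mN = (Finset.univ.filter (fun x : G => ¬ p ∣ orderOf x)).card := ⟨_, rfl⟩
  have hmdvd : ¬ p ∣ mN := by
    rw [hmN]
    exact card_regular_not_dvd G p
  have hminv : MemLocalRing M ((mN : ℂ)⁻¹) := memLocalRing_inv_natCast hM hmdvd
  have hm0 : (mN : ℂ) ≠ 0 := by
    intro h
    apply hmdvd
    have : mN = 0 := by exact_mod_cast h
    rw [this]
    exact dvd_zero p
  obtain ⟨j, hj⟩ : ∃ j : G → ℂ, j = regInd p - (mN : ℂ) • e := ⟨_, rfl⟩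
  have hjcl : IsClassFunction G j := by
    rw [hj]
    exact Cfsg.Agent.Lib.Helper1.isClassFunction_sub (isClassFunction_regInd p)
      (Cfsg.Agent.Lib.Helper1.isClassFunction_smul _ hecl)
  have hjS : SVal M j := by
    rw [hj]
    exact SVal.sub hmax (sVal_regInd hmax p)
      (SVal.smul hmax (memLocalRing_natCast hmax _) heS)
  have hjω : ∀ χ : IrrCharacter G, MemLocalIdeal M (omega (χ : G → ℂ) j) := by
    intro χ
    rw [hj, omega_sub, omega_smul, he, omega_blockCoeff]
    by_cases hχ : χ ∈ principalBlock M G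
    · rw [if_pos hχ, mul_one]
      have h1 : SameBlock M (fun _ : G => (1 : ℂ)) (χ : G → ℂ) := hχ
      have h2 := omega_sub_memLocalIdeal hmax (fun _ _ => rfl) (irr_isClassFunction χ) h1
        (isClassFunction_regInd p) (sVal_regInd hmax p)
      rw [omega_one_regInd, ← hmN] at h2
      have h3 := MemLocalIdeal.neg h2
      rw [neg_sub] at h3
      exact h3
    · rw [if_neg hχ, mul_zero, sub_zero, omega_regInd, sum_regular_eq_zero hM χ hχ, zero_div]
      exact memLocalIdeal_zero hmax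
  obtain ⟨k, hk⟩ := exists_cpow_mem_of_omega_mem hmax hjcl hjS hjω
  obtain ⟨t, ht⟩ : ∃ t, t = orderOf g := ⟨_, rfl⟩
  obtain ⟨a, ha⟩ : ∃ a, a = (Nat.card G).factorization p := ⟨_, rfl⟩
  obtain ⟨n, hn⟩ : ∃ n, n = Nat.totient t * (k + a + 1) := ⟨_, rfl⟩
  have htpos : 0 < t := by
    rw [ht]
    exact orderOf_pos g
  have hφ : 0 < Nat.totient t := Nat.totient_pos.mpr htpos
  have hnge : k + a + 1 ≤ n := by
    rw [hn]
    exact Nat.le_mul_of_pos_left _ hφ
  have hNn : n < p ^ n := Nat.lt_pow_self hp.one_lt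
  have hcop : Nat.Coprime p t := (Nat.Prime.coprime_iff_not_dvd hp).mpr (by rw [ht]; exact hg)
  have hmod : p ^ n ≡ 1 [MOD t] := by
    rw [hn, pow_mul]
    have := (Nat.ModEq.pow_totient hcop).pow (k + a + 1)
    simpa using this
  have hgN : g ^ (p ^ n) = g := by
    have h1 : g ^ (p ^ n) = g ^ 1 := by
      rw [pow_eq_pow_iff_modEq, ← ht]
      exact hmod
    rw [h1, pow_one]
  have hpel : ∀ u : G, u ^ (p ^ n) = 1 ↔ ∃ i : ℕ, orderOf u = p ^ i := by
    intro u
    constructor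
    · intro h
      obtain ⟨i, -, hi⟩ := (Nat.dvd_prime_pow hp).mp (orderOf_dvd_of_pow_eq_one h)
      exact ⟨i, hi⟩
    · rintro ⟨i, hi⟩
      apply orderOf_dvd_iff_pow_eq_one.mp
      rw [hi]
      apply pow_dvd_pow
      have h1 : p ^ i ∣ Nat.card G := by
        rw [← hi]
        exact orderOf_dvd_natCard u
      have h2 := (hp.pow_dvd_iff_le_factorization Nat.card_pos.ne').mp h1
      omega
  have hkN : k ≤ p ^ n := by omega
  obtain ⟨F, hF⟩ : ∃ F : Finset G, F = Finset.univ.filter (fun u : G => u ^ (p ^ n) = 1) :=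
    ⟨_, rfl⟩
  -- the radical part is killed by the sum of the `p`-elements
  have hC : ∀ h : G, MemLocalIdeal M (∑ u ∈ F, j (u * h)) := by
    intro h
    have hbS : SVal M (fun y => j (y * h)) := fun y => hjS _
    have h1 := cpow_one_sub_sum_pow_mem hM (fun y => j (y * h)) hbS n
    rw [cpow_shift hjcl h (p ^ n) 1, ← hF] at h1
    have h2 := cpow_mem_of_le hmax hjS hk hkN (1 * h ^ (p ^ n))
    have h3 : MemLocalIdeal M (∑ u ∈ F, j (u * h) ^ (p ^ n)) := by
      have := MemLocalIdeal.sub hmax h2 h1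
      rwa [sub_sub_cancel] at this
    have h4 := sum_pow_sub_mem hM F (fun u => j (u * h)) (fun u _ => hjS _) n
    have h5 := MemLocalIdeal.add hmax h4 h3
    rw [sub_add_cancel] at h5
    exact memLocalIdeal_of_pow hmax (memLocalRing_sum hmax _ _ (fun u _ => hjS _)) _ h5
  -- the idempotent part
  obtain ⟨x, hx⟩ : ∃ x : ℂ, x = ∑ u ∈ F, e (u * g) := ⟨_, rfl⟩
  have hxR : MemLocalRing M x := by
    rw [hx]
    exact memLocalRing_sum hmax _ _ (fun u _ => heS _)
  have hD : MemLocalIdeal M (x - e g) := by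
    have hbS : SVal M (fun y => e (y * g)) := fun y => heS _
    have h1 := cpow_one_sub_sum_pow_mem hM (fun y => e (y * g)) hbS n
    have hcp : cpow e (p ^ n) = e := by
      obtain ⟨q, hq⟩ : ∃ q, p ^ n = q + 1 := ⟨p ^ n - 1, by omega⟩
      rw [hq]
      exact cpow_idem heidem q
    rw [cpow_shift hecl g (p ^ n) 1, one_mul, hgN, hcp, ← hF] at h1
    have h4 := sum_pow_sub_mem hM F (fun u => e (u * g)) (fun u _ => heS _) n
    rw [← hx] at h4
    have h5 : MemLocalIdeal M (x ^ (p ^ n) - e g) := by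
      have := MemLocalIdeal.sub hmax h4 h1
      have e1 : x ^ p ^ n - ∑ i ∈ F, e (i * g) ^ p ^ n - (e g - ∑ g_1 ∈ F, e (g_1 * g) ^ p ^ n)
          = x ^ p ^ n - e g := by ring
      rwa [e1] at this
    obtain ⟨z, hz⟩ := blockCoeff_principal_rat hM g
    have hcard0 : (Nat.card G : ℂ) ≠ 0 := Nat.cast_ne_zero.mpr Nat.card_pos.ne'
    have hyz : e g * (Nat.card G : ℂ) = (z : ℂ) := by
      rw [he, hz]
      field_simp
    have h6 := pow_prime_sub_self_mem hM (heS g) z (Nat.card G) Nat.card_pos.ne' hyz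
    have h7 := pow_prime_pow_sub_self_mem hM (heS g) h6 n
    have h8 := add_pow_sub_mem hM (MemLocalRing.sub hmax hxR (heS g)) (heS g) n
    rw [sub_add_cancel] at h8
    have h9 : MemLocalIdeal M ((x - e g) ^ (p ^ n)) := by
      have := MemLocalIdeal.sub hmax (MemLocalIdeal.sub hmax h5 h7) h8
      have e1 : x ^ p ^ n - e g - (e g ^ p ^ n - e g) - (x ^ p ^ n - ((x - e g) ^ p ^ n + e g ^ p ^ n))
          = (x - e g) ^ p ^ n := by ring
      rwa [e1] at this
    exact memLocalIdeal_of_pow hmax (MemLocalRing.sub hmax hxR (heS g)) _ h9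
  -- reindexing by inversion
  have hreidx : ∀ H : G → ℂ, ∑ u ∈ F, H u⁻¹ = ∑ u ∈ F, H u := by
    intro H
    rw [hF, Finset.sum_filter, Finset.sum_filter,
      ← Equiv.sum_comp (Equiv.inv G) (fun u => if u ^ (p ^ n) = 1 then H u else 0)]
    apply Finset.sum_congr rfl
    intro u _
    simp only [Equiv.inv_apply, inv_pow, inv_eq_one]
  -- the count
  have hcount : (Nat.card {xy : G × G // (∃ k : ℕ, orderOf xy.1 = p ^ k) ∧
      ¬ p ∣ orderOf xy.2 ∧ xy.1 * xy.2 = g} : ℂ) = ∑ u ∈ F, (regInd p : G → ℂ) (u⁻¹ * g) := by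
    have h1 : ∑ u ∈ F, (regInd p : G → ℂ) (u⁻¹ * g)
        = ((F.filter (fun u : G => ¬ p ∣ orderOf (u⁻¹ * g))).card : ℂ) := by
      rw [← Finset.sum_boole]
      apply Finset.sum_congr rfl
      intro u _
      unfold regInd
      by_cases h : p ∣ orderOf (u⁻¹ * g)
      · rw [if_pos h, if_neg (fun h' => h' h)]
      · rw [if_neg h, if_pos h]
    rw [h1]
    congr 1
    have hFmem : ∀ u : G, u ∈ F ↔ u ^ (p ^ n) = 1 := by
      intro u
      rw [hF, Finset.mem_filter]
      simp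
    have e2 : {xy : G × G // (∃ k : ℕ, orderOf xy.1 = p ^ k) ∧
        ¬ p ∣ orderOf xy.2 ∧ xy.1 * xy.2 = g} ≃
        {u : G // u ∈ F.filter (fun u : G => ¬ p ∣ orderOf (u⁻¹ * g))} :=
      { toFun := fun xy => ⟨xy.1.1, by
          have h2 : xy.1.2 = xy.1.1⁻¹ * g := eq_inv_mul_iff_mul_eq.mpr xy.2.2.2
          refine Finset.mem_filter.mpr ⟨(hFmem _).mpr ((hpel _).mpr xy.2.1), ?_⟩
          rw [← h2]
          exact xy.2.2.1⟩
        invFun := fun u => ⟨(u.1, u.1⁻¹ * g), by
          have h2 := Finset.mem_filter.mp u.2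
          exact ⟨(hpel _).mp ((hFmem _).mp h2.1), h2.2, mul_inv_cancel_left _ _⟩⟩
        left_inv := fun xy => by
          apply Subtype.ext
          apply Prod.ext
          · rfl
          · exact (eq_inv_mul_iff_mul_eq.mpr xy.2.2.2).symm
        right_inv := fun u => rfl }
    rw [Nat.card_congr e2, Nat.card_eq_fintype_card, Fintype.card_coe]
  have hreg : ∀ y : G, (regInd p : G → ℂ) y = (mN : ℂ) * e y + j y := by
    intro y
    rw [hj]
    simp
  have hsum : ∑ u ∈ F, (regInd p : G → ℂ) (u⁻¹ * g)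
      = (mN : ℂ) * x + ∑ u ∈ F, j (u * g) := by
    rw [hx, ← hreidx (fun u => e (u * g)), ← hreidx (fun u => j (u * g)), Finset.mul_sum,
      ← Finset.sum_add_distrib]
    apply Finset.sum_congr rfl
    intro u _
    exact hreg _
  have hmcard : (Nat.card {y : G // ¬ p ∣ orderOf y} : ℂ) = (mN : ℂ) := by
    rw [hmN, Nat.card_eq_fintype_card, Fintype.card_subtype]
  rw [hcount, hsum, hmcard, ← he]
  have e3 : e g - ((mN : ℂ) * x + ∑ u ∈ F, j (u * g)) / (mN : ℂ)
      = -((x - e g) + (∑ u ∈ F, j (u * g)) * (mN : ℂ)⁻¹) := by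
    field_simp
    ring
  rw [e3]
  apply MemLocalIdeal.neg
  exact MemLocalIdeal.add hmax hD (MemLocalIdeal.mul_right hmax (hC g) hminv)

end Cfsg.Agent.Lib.Helper6
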