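import Mathlib
import Cfsg.Agent.Lib.Helper6.Klein4
import Cfsg.Agent.Lib.Helper6.RegInner
import Cfsg.Agent.Lib.Helper1.CharExtra

set_option autoImplicit false
set_option linter.unusedSectionVars false
set_option linter.unusedVariables false

/-!
# Counting the principal 2-block of a group with quaternion Sylow 2-subgroups of order 8

The character-theoretic half: given a central involution `z`, the four characters of the
principal block trivial on `z` and the behaviour on the elements whose 2-part has order 4, the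
principal block has exactly seven characters.
-/

namespace Cfsg.Agent.Lib.Helper6.Quat

open Cfsg Cfsg.Agent.Lib.Helper1 Cfsg.Agent.Lib.Helper24 Cfsg.Agent.Lib.Helper6
open scoped ComplexConjugate

universe u

variable {G : Type u} [Group G] [Fintype G] {M : Ideal AlgInt}

/-- sign of a central involution on an irreducible character -/
theorem central_sign {χ : G → ℂ} (hχ : IsIrrCharacter G χ) {z : G} (hz : z ∈ Subgroup.center G)
    (hzz : z * z = 1) : ∃ c : ℂ, (c = 1 ∨ c = -1) ∧ ∀ g : G, χ (g * z) = c * χ g := by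
  obtain ⟨c, _, hc⟩ := IsIrrCharacter.central_mul hχ hz
  refine ⟨c, ?_, hc⟩
  have h1 := hc (1 * z)
  rw [mul_assoc, hzz, hc 1, mul_one] at h1
  have h0 := irr_one_ne_zero hχ
  have h2 : (c - 1) * (c + 1) * χ 1 = 0 := by linear_combination (-1 : ℂ) * h1
  rcases mul_eq_zero.mp h2 with h3 | h3
  · rcases mul_eq_zero.mp h3 with h4 | h4
    · left; linear_combination h4
    · right; linear_combination h4
  · exact absurd h3 h0

theorem not_both_odd {z : G} (hz : z ∈ Subgroup.center G) (hzo : orderOf z = 2) (g : G)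
    (h1 : ¬ 2 ∣ orderOf g) (h2 : ¬ 2 ∣ orderOf (g * z)) : False := by
  have hc : Commute g⁻¹ (g * z) := by
    show g⁻¹ * (g * z) = g * z * g⁻¹
    rw [inv_mul_cancel_left, Subgroup.mem_center_iff.mp hz g, mul_inv_cancel_right]
  have h3 := hc.orderOf_mul_dvd_mul_orderOf
  rw [inv_mul_cancel_left, hzo, orderOf_inv] at h3
  rcases (Nat.Prime.dvd_mul Nat.prime_two).mp h3 with h | h
  · exact h1 h
  · exact h2 h

theorem key_sum (χ ψ : IrrCharacter G) {z y : G} (hz : z ∈ Subgroup.center G) (hzz : z * z = 1)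
    (hzo : orderOf z = 2) {cχ cψ : ℂ}
    (hcχ : ∀ g : G, (χ : G → ℂ) (g * z) = cχ * (χ : G → ℂ) g)
    (hcψ : ∀ g : G, (ψ : G → ℂ) (g * z) = cψ * (ψ : G → ℂ) g)
    (hvχ : ∀ g : G, 2 ∣ orderOf g → 2 ∣ orderOf (g * z) → (χ : G → ℂ) g = (χ : G → ℂ) y)
    (hvψ : ∀ g : G, 2 ∣ orderOf g → 2 ∣ orderOf (g * z) → (ψ : G → ℂ) g = (ψ : G → ℂ) y) :
    ∑ g : G, conj ((χ : G → ℂ) g) * (ψ : G → ℂ) g =
      (1 + conj cχ * cψ) * ((ordCompl G 2 : ℂ) * (regCoef 2 χ ψ : ℂ)) +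
      ((Finset.univ.filter (fun g : G => 2 ∣ orderOf g ∧ 2 ∣ orderOf (g * z))).card : ℂ) *
        (conj ((χ : G → ℂ) y) * (ψ : G → ℂ) y) := by
  classical
  have hfact : Fact (Nat.Prime 2) := ⟨Nat.prime_two⟩
  have hpt : ∀ g : G, conj ((χ : G → ℂ) g) * (ψ : G → ℂ) g =
      regTrunc 2 (χ : G → ℂ) g * (ψ : G → ℂ) g +
      (if 2 ∣ orderOf (g * z) then 0 else conj ((χ : G → ℂ) g) * (ψ : G → ℂ) g) +
      (if 2 ∣ orderOf g ∧ 2 ∣ orderOf (g * z) then
        conj ((χ : G → ℂ) y) * (ψ : G → ℂ) y else 0) := by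
    intro g
    unfold regTrunc
    by_cases h1 : 2 ∣ orderOf g
    · by_cases h2 : 2 ∣ orderOf (g * z)
      · rw [if_pos h1, if_pos h2, if_pos ⟨h1, h2⟩, hvχ g h1 h2, hvψ g h1 h2]; ring
      · rw [if_pos h1, if_neg h2, if_neg (fun h => h2 h.2)]; ring
    · have h2 : 2 ∣ orderOf (g * z) := by
        by_contra h2
        exact not_both_odd hz hzo g h1 h2
      rw [if_neg h1, if_pos h2, if_neg (fun h => h1 h.1)]; ring
  rw [Finset.sum_congr rfl (fun g _ => hpt g), Finset.sum_add_distrib, Finset.sum_add_distrib]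
  have hs1 : ∑ g : G, regTrunc 2 (χ : G → ℂ) g * (ψ : G → ℂ) g =
      (ordCompl G 2 : ℂ) * (regCoef 2 χ ψ : ℂ) := (regCoef_mul_ordCompl 2 χ ψ).symm
  have hs2 : ∑ g : G, (if 2 ∣ orderOf (g * z) then 0 else
      conj ((χ : G → ℂ) g) * (ψ : G → ℂ) g) =
      conj cχ * cψ * ((ordCompl G 2 : ℂ) * (regCoef 2 χ ψ : ℂ)) := by
    rw [← hs1, Finset.mul_sum, ← Equiv.sum_comp (Equiv.mulRight z)]
    apply Finset.sum_congr rfl
    intro h _
    simp only [Equiv.coe_mulRight]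
    have e : h * z * z = h := by rw [mul_assoc, hzz, mul_one]
    unfold regTrunc
    simp only [e]
    by_cases h1 : 2 ∣ orderOf h
    · rw [if_pos h1, if_pos h1]; ring
    · rw [if_neg h1, if_neg h1, hcχ, hcψ, map_mul]; ring
  have hs3 : ∑ g : G, (if 2 ∣ orderOf g ∧ 2 ∣ orderOf (g * z) then
      conj ((χ : G → ℂ) y) * (ψ : G → ℂ) y else 0) =
      ((Finset.univ.filter (fun g : G => 2 ∣ orderOf g ∧ 2 ∣ orderOf (g * z))).card : ℂ) *
        (conj ((χ : G → ℂ) y) * (ψ : G → ℂ) y) := by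
    rw [← Finset.sum_filter, Finset.sum_const, nsmul_eq_mul]
  rw [hs1, hs2, hs3]; ring

/-- The count: four characters trivial on `z`, hence three faithful ones. -/
theorem quat_count (hM : IsPModular 2 M) (h8 : (Nat.card G).factorization 2 = 3)
    (z y : G) (hz : z ∈ Subgroup.center G) (hzz : z * z = 1) (hz1 : z ≠ 1)
    (hyQ : 2 ∣ orderOf y ∧ 2 ∣ orderOf (y * z))
    (hval : ∀ χ ∈ principalBlock M G, ∀ g : G, 2 ∣ orderOf g → 2 ∣ orderOf (g * z) →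
      (χ : G → ℂ) g = (χ : G → ℂ) y)
    (hyz : ∀ χ : IrrCharacter G, (χ : G → ℂ) (y * z) = (χ : G → ℂ) y)
    (T : Finset (IrrCharacter G)) (hT : T.card = 4)
    (hTmem : ∀ χ, χ ∈ T ↔ χ ∈ principalBlock M G ∧ ∀ g, (χ : G → ℂ) (g * z) = (χ : G → ℂ) g)
    (hTval : ∀ χ ∈ T, (χ : G → ℂ) y = 1 ∨ (χ : G → ℂ) y = -1)
    (hfaith : ∃ χ ∈ principalBlock M G, ¬ ∀ g, (χ : G → ℂ) (g * z) = (χ : G → ℂ) g) :
    Nat.card (principalBlock M G) = 7 := by
  classical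
  have hfact : Fact (Nat.Prime 2) := ⟨Nat.prime_two⟩
  haveI hfinIrr : Fintype (IrrCharacter G) := irrFintype
  have hmax := hM.2.1
  have hzo : orderOf z = 2 := orderOf_eq_prime (by rw [pow_two]; exact hzz) hz1
  have hsign : ∀ χ : IrrCharacter G, ∃ c : ℂ, (c = 1 ∨ c = -1) ∧
      ∀ g : G, (χ : G → ℂ) (g * z) = c * (χ : G → ℂ) g := fun χ => central_sign χ.2 hz hzz
  choose s hs1 hs2 using hsign
  obtain ⟨Q, hQ⟩ : ∃ Q : Finset G,
      Q = Finset.univ.filter (fun g : G => 2 ∣ orderOf g ∧ 2 ∣ orderOf (g * z)) := ⟨_, rfl⟩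
  have hQpos : 0 < Q.card := by
    rw [hQ]
    exact Finset.card_pos.mpr ⟨y, Finset.mem_filter.mpr ⟨Finset.mem_univ _, hyQ⟩⟩
  obtain ⟨c0, hc0⟩ : ∃ c0 : ℕ, c0 = ordCompl G 2 := ⟨_, rfl⟩
  have hc0pos : 0 < c0 := hc0 ▸ ordCompl_pos (G := G) 2
  have hcard : Nat.card G = 8 * c0 := by
    have := ordCompl_mul (G := G) 2
    rw [h8] at this
    rw [hc0, ← this]; norm_num
  have hc0C : (c0 : ℂ) ≠ 0 := by exact_mod_cast hc0pos.ne'
  -- orthogonality
  have horth : ∀ χ ψ : IrrCharacter G, ∑ g : G, conj ((χ : G → ℂ) g) * (ψ : G → ℂ) g =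
      (Nat.card G : ℂ) * (if ψ = χ then 1 else 0) := by
    intro χ ψ
    have hn : (Nat.card G : ℂ) ≠ 0 := by exact_mod_cast (Nat.card_pos (α := G)).ne'
    have h := CharBasic.irr_orthonormal ψ.2 χ.2
    unfold classInner at h
    have h2 := (inv_mul_eq_iff_eq_mul₀ hn).mp h
    rw [Finset.sum_congr rfl (fun g _ => mul_comm (conj ((χ : G → ℂ) g)) ((ψ : G → ℂ) g)), h2]
    by_cases hψχ : ψ = χ
    · rw [if_pos hψχ, if_pos (congrArg Subtype.val hψχ)]
    · rw [if_neg hψχ, if_neg (fun h' => hψχ (Subtype.ext h'))]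
  -- the basic identity
  have hF1 : ∀ χ ψ : IrrCharacter G, χ ∈ principalBlock M G → ψ ∈ principalBlock M G →
      (8 * (c0 : ℂ)) * (if ψ = χ then 1 else 0) =
      (1 + conj (s χ) * s ψ) * ((c0 : ℂ) * (regCoef 2 χ ψ : ℂ)) +
      (Q.card : ℂ) * (conj ((χ : G → ℂ) y) * (ψ : G → ℂ) y) := by
    intro χ ψ hχ hψ
    have h := key_sum χ ψ hz hzz hzo (hs2 χ) (hs2 ψ) (hval χ hχ) (hval ψ hψ)
    rw [horth χ ψ, hcard, ← hc0, ← hQ] at h
    rw [← h]; push_cast; ring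
  have hvan : ∀ χ : IrrCharacter G, s χ = -1 → (χ : G → ℂ) y = 0 := by
    intro χ hχ
    have h1 := hs2 χ y
    rw [hyz χ, hχ] at h1
    have : (2 : ℂ) * (χ : G → ℂ) y = 0 := by linear_combination h1
    exact (mul_eq_zero.mp this).resolve_left two_ne_zero
  obtain ⟨χ1, hχ1⟩ : ∃ χ1 : IrrCharacter G, χ1 = ⟨fun _ => 1, CharBasic.irr_trivial⟩ :=
    ⟨_, rfl⟩
  have hχ1B : χ1 ∈ principalBlock M G := by
    rw [hχ1]; exact DefectGroup.trivial_mem_principal hmax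
  have hχ1val : ∀ g : G, (χ1 : G → ℂ) g = 1 := by intro g; rw [hχ1]
  have hsχ1 : s χ1 = 1 := by
    have := hs2 χ1 1
    rw [hχ1val, hχ1val, mul_one] at this
    exact this.symm
  obtain ⟨κ, hκ⟩ : ∃ κ : ℤ, κ = 4 - regCoef 2 χ1 χ1 := ⟨_, rfl⟩
  have hQκ : (Q.card : ℂ) = 2 * (c0 : ℂ) * (κ : ℂ) := by
    have h := hF1 χ1 χ1 hχ1B hχ1B
    rw [if_pos rfl, hsχ1, hχ1val, map_one] at h
    rw [hκ]; push_cast; linear_combination (-1 : ℂ) * h
  have hκpos : 1 ≤ κ := by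
    have h1 : ((Q.card : ℤ) : ℂ) = ((2 * (c0 : ℤ) * κ : ℤ) : ℂ) := by push_cast; exact hQκ
    have h2 : (Q.card : ℤ) = 2 * (c0 : ℤ) * κ := by exact_mod_cast h1
    have h3 : (0 : ℤ) < Q.card := by exact_mod_cast hQpos
    have h4 : (0 : ℤ) < c0 := by exact_mod_cast hc0pos
    by_contra hcon
    rw [not_le] at hcon
    nlinarith
  obtain ⟨F, hF⟩ : ∃ F : Finset (IrrCharacter G),
      F = Finset.univ.filter (fun χ : IrrCharacter G => χ ∈ principalBlock M G) := ⟨_, rfl⟩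
  have hmemF : ∀ χ : IrrCharacter G, χ ∈ F ↔ χ ∈ principalBlock M G := by
    intro χ; rw [hF, Finset.mem_filter]; exact ⟨fun h => h.2, fun h => ⟨Finset.mem_univ _, h⟩⟩
  have hTeq : T = F.filter (fun χ => s χ = 1) := by
    ext χ
    rw [hTmem, Finset.mem_filter, hmemF]
    constructor
    · rintro ⟨h1, h2⟩
      refine ⟨h1, ?_⟩
      have h3 := hs2 χ 1
      rw [h2 1] at h3
      have h0 := irr_one_ne_zero χ.2
      have h4 : (s χ - 1) * (χ : G → ℂ) 1 = 0 := by linear_combination (-1 : ℂ) * h3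
      exact sub_eq_zero.mp ((mul_eq_zero.mp h4).resolve_right h0)
    · rintro ⟨h1, h2⟩
      refine ⟨h1, fun g => ?_⟩
      rw [hs2 χ g, h2, one_mul]
  obtain ⟨Tm, hTm⟩ : ∃ Tm : Finset (IrrCharacter G), Tm = F.filter (fun χ => ¬ s χ = 1) :=
    ⟨_, rfl⟩
  have hmemT : ∀ χ, χ ∈ T ↔ χ ∈ principalBlock M G ∧ s χ = 1 := by
    intro χ; rw [hTeq, Finset.mem_filter, hmemF]
  have hmemTm : ∀ χ, χ ∈ Tm ↔ χ ∈ principalBlock M G ∧ s χ = -1 := by
    intro χ; rw [hTm, Finset.mem_filter, hmemF]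
    constructor
    · rintro ⟨h1, h2⟩; exact ⟨h1, (hs1 χ).resolve_left h2⟩
    · rintro ⟨h1, h2⟩; refine ⟨h1, ?_⟩; rw [h2]; norm_num
  have hFcard : F.card = T.card + Tm.card := by
    rw [hTeq, hTm]; exact (Finset.card_filter_add_card_filter_not _).symm
  have hm_minus : ∀ χ ψ : IrrCharacter G, χ ∈ Tm → ψ ∈ Tm →
      regCoef 2 χ ψ = if ψ = χ then 4 else 0 := by
    intro χ ψ hχ hψ
    obtain ⟨hχB, hχs⟩ := (hmemTm χ).mp hχ
    obtain ⟨hψB, hψs⟩ := (hmemTm ψ).mp hψ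
    have h := hF1 χ ψ hχB hψB
    rw [hχs, hψs, hvan χ hχs, hvan ψ hψs] at h
    simp only [map_neg, map_one, map_zero] at h
    by_cases e : ψ = χ
    · rw [if_pos e] at h ⊢
      have h2 : ((regCoef 2 χ ψ : ℤ) : ℂ) = 4 := by
        apply mul_left_cancel₀ hc0C
        linear_combination (-1 / 2 : ℂ) * h
      exact_mod_cast h2
    · rw [if_neg e] at h ⊢
      have h2 : ((regCoef 2 χ ψ : ℤ) : ℂ) = 0 := by
        apply mul_left_cancel₀ hc0C
        linear_combination (-1 / 2 : ℂ) * h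
      exact_mod_cast h2
  have hm_plus_self : ∀ ψ : IrrCharacter G, ψ ∈ T → regCoef 2 ψ ψ = 4 - κ := by
    intro ψ hψ
    obtain ⟨hψB, hψs⟩ := (hmemT ψ).mp hψ
    have h := hF1 ψ ψ hψB hψB
    rw [if_pos rfl, hψs, hQκ] at h
    have h2 : ((regCoef 2 ψ ψ : ℤ) : ℂ) = 4 - (κ : ℂ) := by
      apply mul_left_cancel₀ hc0C
      rcases hTval ψ hψ with hv | hv
      · rw [hv] at h; simp only [map_one] at h; linear_combination (-1 / 2 : ℂ) * h
      · rw [hv] at h; simp only [map_neg, map_one] at h; linear_combination (-1 / 2 : ℂ) * h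
    exact_mod_cast h2
  have hm_plus_ne : ∀ ψ η : IrrCharacter G, ψ ∈ T → η ∈ T → η ≠ ψ →
      regCoef 2 ψ η ^ 2 = κ ^ 2 := by
    intro ψ η hψ hη hne
    obtain ⟨hψB, hψs⟩ := (hmemT ψ).mp hψ
    obtain ⟨hηB, hηs⟩ := (hmemT η).mp hη
    have h := hF1 ψ η hψB hηB
    rw [if_neg hne, hψs, hηs, hQκ] at h
    have hab : conj ((ψ : G → ℂ) y) * (η : G → ℂ) y = 1 ∨
        conj ((ψ : G → ℂ) y) * (η : G → ℂ) y = -1 := by
      rcases hTval ψ hψ with hv | hv <;> rcases hTval η hη with hw | hw <;>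
        rw [hv, hw] <;> simp
    have h2 : ((regCoef 2 ψ η : ℤ) : ℂ) ^ 2 = (κ : ℂ) ^ 2 := by
      apply mul_left_cancel₀ (pow_ne_zero 2 hc0C)
      rcases hab with e | e
      · rw [e] at h; simp only [map_one] at h
        linear_combination (-((c0 : ℂ) * ((regCoef 2 ψ η : ℤ) : ℂ) - (c0 : ℂ) * (κ : ℂ)) / 2) * h
      · rw [e] at h; simp only [map_one] at h
        linear_combination (-((c0 : ℂ) * ((regCoef 2 ψ η : ℤ) : ℂ) + (c0 : ℂ) * (κ : ℂ)) / 2) * h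
    exact_mod_cast h2
  have hsq : ∀ χ : IrrCharacter G, χ ∈ principalBlock M G →
      ∑ ψ ∈ T, regCoef 2 χ ψ ^ 2 + ∑ ψ ∈ Tm, regCoef 2 χ ψ ^ 2 = 8 * regCoef 2 χ χ := by
    intro χ hχ
    have h := sum_regCoef_sq 2 χ
    rw [h8] at h
    have h1 : ∑ ψ : IrrCharacter G, regCoef 2 χ ψ ^ 2 = ∑ ψ ∈ F, regCoef 2 χ ψ ^ 2 := by
      symm
      apply Finset.sum_subset (Finset.subset_univ F)
      intro ψ _ hψ
      have hns : ¬ SameBlock M (χ : G → ℂ) (ψ : G → ℂ) := by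
        intro hs
        exact hψ ((hmemF ψ).mpr (sameBlock_trans hmax hχ hs))
      rw [regCoef_eq_zero hM χ ψ hns]; norm_num
    rw [h1, ← Finset.sum_filter_add_sum_filter_not F (fun ψ => s ψ = 1), ← hTeq, ← hTm] at h
    rw [h]; norm_num
  have hrowm : ∀ χ ∈ Tm, ∑ ψ ∈ T, regCoef 2 χ ψ ^ 2 = 16 := by
    intro χ hχ
    have h := hsq χ ((hmemTm χ).mp hχ).1
    have h2 : ∑ ψ ∈ Tm, regCoef 2 χ ψ ^ 2 = 16 := by
      rw [Finset.sum_congr rfl (fun ψ hψ => by rw [hm_minus χ ψ hχ hψ])]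
      rw [Finset.sum_eq_single_of_mem χ hχ (fun ψ _ hne => by rw [if_neg hne]; norm_num)]
      rw [if_pos rfl]; norm_num
    rw [h2, hm_minus χ χ hχ hχ, if_pos rfl] at h
    linarith
  have hrowp : ∀ ψ ∈ T, ∑ χ ∈ Tm, regCoef 2 ψ χ ^ 2 = 16 - 4 * κ ^ 2 := by
    intro ψ hψ
    have h := hsq ψ ((hmemT ψ).mp hψ).1
    have h2 : ∑ η ∈ T, regCoef 2 ψ η ^ 2 = (4 - κ) ^ 2 + 3 * κ ^ 2 := by
      rw [← Finset.add_sum_erase T _ hψ, hm_plus_self ψ hψ]
      rw [Finset.sum_congr rfl (fun η hη => hm_plus_ne ψ η hψ (Finset.mem_of_mem_erase hη)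
        (Finset.ne_of_mem_erase hη))]
      rw [Finset.sum_const, Finset.card_erase_of_mem hψ, hT]; norm_num
    rw [h2, hm_plus_self ψ hψ] at h
    linarith
  have hdc : ∑ χ ∈ Tm, ∑ ψ ∈ T, regCoef 2 χ ψ ^ 2 = ∑ ψ ∈ T, ∑ χ ∈ Tm, regCoef 2 ψ χ ^ 2 := by
    rw [Finset.sum_comm]
    apply Finset.sum_congr rfl; intro ψ _; apply Finset.sum_congr rfl; intro χ _
    rw [regCoef_symm]
  rw [Finset.sum_congr rfl hrowm, Finset.sum_congr rfl hrowp, Finset.sum_const,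
    Finset.sum_const, hT] at hdc
  have hTmpos : 1 ≤ Tm.card := by
    obtain ⟨χ, hχB, hχ⟩ := hfaith
    apply Finset.card_pos.mpr
    refine ⟨χ, (hmemTm χ).mpr ⟨hχB, (hs1 χ).resolve_left ?_⟩⟩
    intro h1
    apply hχ; intro g; rw [hs2 χ g, h1, one_mul]
  have hfin : Tm.card = 3 := by
    simp only [nsmul_eq_mul, Nat.cast_ofNat] at hdc
    have hTmZ : (1 : ℤ) ≤ Tm.card := by exact_mod_cast hTmpos
    have hκle : κ ≤ 1 := by
      by_contra hcon
      rw [not_le] at hcon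
      have hk4 : 4 ≤ κ ^ 2 := by nlinarith
      linarith
    have hκ1 : κ = 1 := le_antisymm hκle hκpos
    rw [hκ1] at hdc
    have : (Tm.card : ℤ) = 3 := by push_cast at hdc; linarith
    exact_mod_cast this
  have hcardB : Nat.card (principalBlock M G) = F.card := by
    rw [hF, Nat.card_eq_fintype_card]; exact Fintype.card_subtype _
  rw [hcardB, hFcard, hT, hfin]

end Cfsg.Agent.Lib.Helper6.Quat
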