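import Mathlib
import Cfsg.Prelude.Def_Blocks
import Cfsg.Agent.Lib.Helper6.RegRes

set_option autoImplicit false
set_option linter.unusedSectionVars false
set_option linter.unusedVariables false

/-!
# Inner products of combinations of irreducible characters
-/

namespace Cfsg.Agent.Lib.Helper6

open Cfsg
open scoped ComplexConjugate

universe u

variable {G : Type u} [Group G] [Fintype G] {M : Ideal AlgInt}

/-- The coefficient of `ψ` in a combination of irreducible characters. -/
theorem classInner_sum_irr [Fintype (IrrCharacter G)] (d : IrrCharacter G → ℂ)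
    (ψ : IrrCharacter G) :
    classInner (fun g : G => ∑ ξ : IrrCharacter G, d ξ * (ξ : G → ℂ) g) (ψ : G → ℂ) = d ψ := by
  classical
  have h : ∀ ξ : IrrCharacter G, (Nat.card G : ℂ)⁻¹ *
      ∑ g : G, (ξ : G → ℂ) g * conj ((ψ : G → ℂ) g) = if ξ = ψ then 1 else 0 := by
    intro ξ
    have h1 := Cfsg.Agent.Lib.Helper1.classInner_irr ξ.2 ψ.2
    unfold classInner at h1
    rw [h1]
    by_cases h2 : ξ = ψ
    · simp [h2]
    · rw [if_neg h2, if_neg (fun h' => h2 (Subtype.ext h'))]
  unfold classInner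
  have h3 : ∀ g : G, (∑ ξ : IrrCharacter G, d ξ * (ξ : G → ℂ) g) * conj ((ψ : G → ℂ) g) =
      ∑ ξ : IrrCharacter G, d ξ * ((ξ : G → ℂ) g * conj ((ψ : G → ℂ) g)) := by
    intro g
    rw [Finset.sum_mul]
    apply Finset.sum_congr rfl
    intro ξ _
    ring
  rw [Finset.sum_congr rfl (fun g _ => h3 g), Finset.sum_comm, Finset.mul_sum]
  have h4 : ∀ ξ : IrrCharacter G, (Nat.card G : ℂ)⁻¹ *
      ∑ g : G, d ξ * ((ξ : G → ℂ) g * conj ((ψ : G → ℂ) g)) =
      d ξ * if ξ = ψ then 1 else 0 := by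
    intro ξ
    rw [← h ξ, ← Finset.mul_sum]
    ring
  rw [Finset.sum_congr rfl (fun ξ _ => h4 ξ)]
  simp

end Cfsg.Agent.Lib.Helper6
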