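import Mathlib
import Cfsg.Prelude.Def_Blocks
import Cfsg.Agent.Lib.Helper6.DegSq
import Cfsg.Agent.Lib.Helper1.CharPRes
import Cfsg.Agent.Lib.Helper1.CharMisc
import Cfsg.Agent.Lib.Helper1.CharClifford

set_option autoImplicit false
set_option linter.unusedSectionVars false
set_option linter.unusedVariables false

/-!
# Height zero characters of a block of a normal subgroup stable under a Sylow subgroup

* `irrConj H g θ`: the conjugate of an irreducible character of a normal subgroup;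
* `irrStab H θ`: its stabilizer;
* `sum_sylow_comp_mulAut`: the sum of a class function over a Sylow subgroup is invariant under
  automorphisms;
* `exists_height_zero_fixed`: a block of a normal subgroup has a character of height zero fixed
  by a given Sylow subgroup of a group stabilizing the block.
-/

namespace Cfsg.Agent.Lib.Helper6

open Cfsg
open scoped ComplexConjugate

universe u

variable {G : Type u} [Group G] [Fintype G] {M : Ideal AlgInt}

/-- The conjugate `h ↦ θ (g⁻¹ h g)` of an irreducible character of a normal subgroup. -/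
noncomputable def irrConj (H : Subgroup G) [hH : H.Normal] (g : G) (θ : IrrCharacter H) :
    IrrCharacter H :=
  ⟨Cfsg.Agent.Lib.Helper1.conjChar H (θ : H → ℂ) g⁻¹,
    Cfsg.Agent.Lib.Helper1.conjChar_irr H θ.2 g⁻¹⟩

theorem irrConj_apply (H : Subgroup G) [hH : H.Normal] (g : G) (θ : IrrCharacter H) (h h' : H)
    (hh : (h' : G) = g * h * g⁻¹) : (irrConj H g θ : H → ℂ) h' = (θ : H → ℂ) h := by
  have hm : g⁻¹ * (h' : G) * g⁻¹⁻¹ ∈ H := hH.conj_mem h' h'.2 g⁻¹
  have e : (⟨g⁻¹ * (h' : G) * g⁻¹⁻¹, hm⟩ : H) = h := by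
    apply Subtype.ext
    show g⁻¹ * (h' : G) * g⁻¹⁻¹ = (h : G)
    rw [hh]
    group
  show (θ : H → ℂ) ⟨g⁻¹ * h' * g⁻¹⁻¹, hm⟩ = (θ : H → ℂ) h
  rw [e]

theorem irrConj_unique (H : Subgroup G) [hH : H.Normal] (g : G) (θ θ' : IrrCharacter H)
    (h : ∀ h h' : H, (h' : G) = g * h * g⁻¹ → (θ' : H → ℂ) h' = (θ : H → ℂ) h) :
    θ' = irrConj H g θ := by
  apply Subtype.ext
  funext n
  have hmem : g⁻¹ * (n : G) * g ∈ H := by
    have := hH.conj_mem n n.2 g⁻¹
    simpa using this
  have e : (n : G) = g * ((⟨g⁻¹ * (n : G) * g, hmem⟩ : H) : G) * g⁻¹ := by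
    show (n : G) = g * (g⁻¹ * (n : G) * g) * g⁻¹
    group
  rw [h ⟨g⁻¹ * (n : G) * g, hmem⟩ n e, irrConj_apply H g θ ⟨g⁻¹ * (n : G) * g, hmem⟩ n e]

theorem irrConj_one (H : Subgroup G) [hH : H.Normal] (θ : IrrCharacter H) :
    irrConj H 1 θ = θ := by
  symm
  apply irrConj_unique
  intro h h' hh
  have : h' = h := by
    apply Subtype.ext
    rw [hh]
    group
  rw [this]

theorem irrConj_mul (H : Subgroup G) [hH : H.Normal] (g₁ g₂ : G) (θ : IrrCharacter H) :
    irrConj H (g₁ * g₂) θ = irrConj H g₁ (irrConj H g₂ θ) := by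
  symm
  apply irrConj_unique
  intro h h' hh
  have hmem : g₂ * (h : G) * g₂⁻¹ ∈ H := hH.conj_mem h h.2 g₂
  have e1 : (h' : G) = g₁ * ((⟨g₂ * (h : G) * g₂⁻¹, hmem⟩ : H) : G) * g₁⁻¹ := by
    show (h' : G) = g₁ * (g₂ * (h : G) * g₂⁻¹) * g₁⁻¹
    rw [hh]
    group
  rw [irrConj_apply H g₁ _ ⟨g₂ * (h : G) * g₂⁻¹, hmem⟩ h' e1,
    irrConj_apply H g₂ θ h ⟨g₂ * (h : G) * g₂⁻¹, hmem⟩ rfl]

theorem irrConj_inv_cancel (H : Subgroup G) [hH : H.Normal] (g : G) (θ : IrrCharacter H) :
    irrConj H g⁻¹ (irrConj H g θ) = θ := by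
  rw [← irrConj_mul, inv_mul_cancel, irrConj_one]

theorem charDegree_irrConj (H : Subgroup G) [hH : H.Normal] (g : G) (θ : IrrCharacter H) :
    charDegree (irrConj H g θ : H → ℂ) = charDegree (θ : H → ℂ) := by
  unfold charDegree
  rw [irrConj_apply H g θ 1 1 (by simp)]

/-- The stabilizer of an irreducible character of a normal subgroup. -/
noncomputable def irrStab (H : Subgroup G) [hH : H.Normal] (θ : IrrCharacter H) : Subgroup G where
  carrier := {g | irrConj H g θ = θ}
  mul_mem' := by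
    intro a b ha hb
    show irrConj H (a * b) θ = θ
    have ha' : irrConj H a θ = θ := ha
    have hb' : irrConj H b θ = θ := hb
    rw [irrConj_mul, hb', ha']
  one_mem' := irrConj_one H θ
  inv_mem' := by
    intro a ha
    show irrConj H a⁻¹ θ = θ
    have ha' : irrConj H a θ = θ := ha
    nth_rewrite 1 [← ha']
    exact irrConj_inv_cancel H a θ

theorem mem_irrStab_iff (H : Subgroup G) [hH : H.Normal] (θ : IrrCharacter H) (g : G) :
    g ∈ irrStab H θ ↔ ∀ h h' : H, (h' : G) = g * h * g⁻¹ → (θ : H → ℂ) h' = (θ : H → ℂ) h := by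
  constructor
  · intro hg h h' hh
    have hg' : irrConj H g θ = θ := hg
    nth_rewrite 1 [← hg']
    exact irrConj_apply H g θ h h' hh
  · intro hg
    show irrConj H g θ = θ
    exact (irrConj_unique H g θ θ hg).symm

open Classical in
/-- The sum of a class function over a Sylow subgroup is invariant under automorphisms. -/
theorem sum_sylow_comp_mulAut (p : ℕ) [Fact p.Prime] {K : Type u} [Group K] [Fintype K]
    (Q : Sylow p K) [Fintype (Q : Subgroup K)] (φ : MulAut K) {θ : K → ℂ}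
    (hθ : IsClassFunction K θ) :
    ∑ x : (Q : Subgroup K), θ (φ x) = ∑ x : (Q : Subgroup K), θ x := by
  obtain ⟨h, hh⟩ := MulAction.exists_smul_eq K Q (φ • Q)
  have hmem : ∀ z : K, φ.symm z ∈ (Q : Subgroup K) ↔ h⁻¹ * z * h ∈ (Q : Subgroup K) := by
    intro z
    have h1 : z ∈ ((φ • Q : Sylow p K) : Subgroup K) ↔ φ.symm z ∈ (Q : Subgroup K) := by
      rw [Sylow.pointwise_smul_def, Subgroup.mem_pointwise_smul_iff_inv_smul_mem]
      rfl
    have h2 : z ∈ ((h • Q : Sylow p K) : Subgroup K) ↔ h⁻¹ * z * h ∈ (Q : Subgroup K) := by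
      rw [Sylow.smul_def, Sylow.pointwise_smul_def, Subgroup.mem_pointwise_smul_iff_inv_smul_mem]
      have e : (MulAut.conj h)⁻¹ • z = h⁻¹ * z * h := by
        rw [← map_inv, MulAut.smul_def, MulAut.conj_apply, inv_inv]
      rw [e]
    rw [← h1, ← h2, hh]
  rw [Cfsg.Agent.Lib.Helper1.sum_subgroup_eq (Q : Subgroup K) (fun y => θ (φ y)),
    Cfsg.Agent.Lib.Helper1.sum_subgroup_eq (Q : Subgroup K) θ]
  calc ∑ y : K, (if y ∈ (Q : Subgroup K) then θ (φ y) else 0)
      = ∑ z : K, (if φ.symm z ∈ (Q : Subgroup K) then θ z else 0) := by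
        rw [← Equiv.sum_comp φ.toEquiv
          (fun z => if φ.symm z ∈ (Q : Subgroup K) then θ z else 0)]
        apply Finset.sum_congr rfl
        intro y _
        simp
    _ = ∑ z : K, (if h⁻¹ * z * h ∈ (Q : Subgroup K) then θ z else 0) := by
        apply Finset.sum_congr rfl
        intro z _
        by_cases hz : φ.symm z ∈ (Q : Subgroup K)
        · rw [if_pos hz, if_pos ((hmem z).mp hz)]
        · rw [if_neg hz, if_neg (fun h' => hz ((hmem z).mpr h'))]
    _ = ∑ w : K, (if w ∈ (Q : Subgroup K) then θ w else 0) := by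
        rw [← Equiv.sum_comp (MulAut.conj h).toEquiv
          (fun z => if h⁻¹ * z * h ∈ (Q : Subgroup K) then θ z else 0)]
        apply Finset.sum_congr rfl
        intro w _
        have e1 : h⁻¹ * (h * w * h⁻¹) * h = w := by group
        show (if h⁻¹ * (h * w * h⁻¹) * h ∈ (Q : Subgroup K) then θ (h * w * h⁻¹) else 0) = _
        rw [e1, hθ w h]

open Classical in
/-- A block of a normal subgroup has a character of height zero fixed by a given Sylow subgroup
of a group stabilizing the block. -/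
theorem exists_height_zero_fixed {p : ℕ} [Fact p.Prime] (hM : IsPModular p M) (H : Subgroup G)
    [hH : H.Normal] (b : Set (IrrCharacter H)) (hb : IsPBlock M b) (T : Subgroup G)
    (hT : ∀ g ∈ T, ∀ θ ∈ b, irrConj H g θ ∈ b) (P₁ : Sylow p T) :
    ∃ θ ∈ b, blockHeight p b (θ : H → ℂ) = 0 ∧
      ∀ x : (P₁ : Subgroup T), irrConj H ((x : T) : G) θ = θ := by
  have hp := (Fact.out : p.Prime)
  have hmax := hM.2.1
  haveI : Fintype H := Fintype.ofFinite _
  haveI hfin : Fintype (IrrCharacter H) := Cfsg.Agent.Lib.Helper1.irrFintype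
  obtain ⟨ψ₀, hψ₀, hd, hmin⟩ := Cfsg.Agent.Lib.Helper24.Defect.exists_height_zero p b
    (Cfsg.Agent.Lib.Helper24.Defect.block_nonempty hmax b hb)
  obtain ⟨Q⟩ := (inferInstance : Nonempty (Sylow p H))
  haveI : Fintype (Q : Subgroup H) := Fintype.ofFinite _
  choose c hc using fun ψ : IrrCharacter H => sum_sylow_char p Q
    (Cfsg.Agent.Lib.Helper1.IsIrrCharacter.isCharacter ψ.2)
  have h2 := not_dvd_sum_degree_mult hM b hb Q c hc hψ₀ hmin
  obtain ⟨s, hs⟩ : ∃ s, s = (charDegree (ψ₀ : H → ℂ)).factorization p := ⟨_, rfl⟩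
  rw [← hs] at hmin h2
  have hcinv : ∀ (g : G) (θ : IrrCharacter H), c (irrConj H g θ) = c θ := by
    intro g θ
    have h1 := hc (irrConj H g θ)
    have h3 : ∑ x : (Q : Subgroup H), (irrConj H g θ : H → ℂ) x
        = ∑ x : (Q : Subgroup H), (θ : H → ℂ) x :=
      sum_sylow_comp_mulAut p Q (Cfsg.Agent.Lib.Helper1.conjNormal H g⁻¹)
        (irr_isClassFunction θ)
    rw [h3, hc θ] at h1
    have hpne : ((p ^ (Nat.card H).factorization p : ℕ) : ℂ) ≠ 0 :=
      Nat.cast_ne_zero.mpr (pow_pos hp.pos _).ne'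
    exact_mod_cast (mul_left_cancel₀ hpne h1).symm
  have hbinv : ∀ g ∈ T, ∀ θ : IrrCharacter H, irrConj H g θ ∈ b ↔ θ ∈ b := by
    intro g hg θ
    constructor
    · intro h
      have := hT g⁻¹ (T.inv_mem hg) _ h
      rwa [irrConj_inv_cancel] at this
    · exact hT g hg θ
  obtain ⟨f, hf⟩ : ∃ f : IrrCharacter H → ℕ, f = fun θ =>
      if θ ∈ b ∧ (charDegree (θ : H → ℂ)).factorization p = s then
        (charDegree (θ : H → ℂ) / p ^ s) * c θ else 0 := ⟨_, rfl⟩
  letI act : MulAction (P₁ : Subgroup T) (IrrCharacter H) :=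
    { smul := fun x θ => irrConj H ((x : T) : G) θ
      one_smul := fun θ => irrConj_one H θ
      mul_smul := fun x y θ => irrConj_mul H _ _ θ }
  have hsmul : ∀ (x : (P₁ : Subgroup T)) (θ : IrrCharacter H),
      x • θ = irrConj H ((x : T) : G) θ := fun _ _ => rfl
  have hfinv : ∀ (x : (P₁ : Subgroup T)) (θ : IrrCharacter H), f (x • θ) = f θ := by
    intro x θ
    rw [hsmul, hf]
    show (if irrConj H ((x : T) : G) θ ∈ b ∧
        (charDegree (irrConj H ((x : T) : G) θ : H → ℂ)).factorization p = s then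
        (charDegree (irrConj H ((x : T) : G) θ : H → ℂ) / p ^ s) *
          c (irrConj H ((x : T) : G) θ) else 0) =
      if θ ∈ b ∧ (charDegree (θ : H → ℂ)).factorization p = s then
        (charDegree (θ : H → ℂ) / p ^ s) * c θ else 0
    rw [charDegree_irrConj, hcinv]
    have := hbinv ((x : T) : G) (x : T).2 θ
    simp only [this]
  have hwfp := Cfsg.Agent.Lib.Helper1.weighted_fixed_points (P₁.isPGroup') f hfinv
    (Finset.univ.filter (fun θ : IrrCharacter H => ∀ x : (P₁ : Subgroup T), x • θ = θ))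
    (fun a => by simp)
  have hnd : ¬ p ∣ ∑ θ : IrrCharacter H, f θ := by
    intro hdvd
    apply h2
    obtain ⟨r, hr⟩ : ∃ r : IrrCharacter H → ℕ, r = fun θ =>
      if θ ∈ b ∧ (charDegree (θ : H → ℂ)).factorization p ≠ s then
        charDegree (θ : H → ℂ) * c θ else 0 := ⟨_, rfl⟩
    have hsplit : ∑ χ ∈ Finset.univ.filter (fun χ : IrrCharacter H => χ ∈ b),
        charDegree (χ : H → ℂ) * c χ
        = p ^ s * ∑ θ : IrrCharacter H, f θ + ∑ θ : IrrCharacter H, r θ := by
      rw [Finset.sum_filter, Finset.mul_sum, ← Finset.sum_add_distrib]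
      apply Finset.sum_congr rfl
      intro θ _
      rw [hf, hr]
      show (if θ ∈ b then charDegree (θ : H → ℂ) * c θ else 0) =
        p ^ s * (if θ ∈ b ∧ (charDegree (θ : H → ℂ)).factorization p = s then
          (charDegree (θ : H → ℂ) / p ^ s) * c θ else 0) +
        (if θ ∈ b ∧ (charDegree (θ : H → ℂ)).factorization p ≠ s then
          charDegree (θ : H → ℂ) * c θ else 0)
      by_cases hθ : θ ∈ b
      · by_cases hν : (charDegree (θ : H → ℂ)).factorization p = s
        · rw [if_pos hθ, if_pos ⟨hθ, hν⟩, if_neg (fun h => h.2 hν), add_zero, ← mul_assoc]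
          congr 1
          have hdv : p ^ s ∣ charDegree (θ : H → ℂ) := by
            rw [← hν]
            exact Nat.ordProj_dvd _ _
          exact (Nat.mul_div_cancel' hdv).symm
        · rw [if_pos hθ, if_neg (fun h => hν h.2), if_pos ⟨hθ, hν⟩, mul_zero, zero_add]
      · rw [if_neg hθ, if_neg (fun h => hθ h.1), if_neg (fun h => hθ h.1), mul_zero, add_zero]
    rw [hsplit]
    apply dvd_add
    · rw [pow_succ]
      exact mul_dvd_mul_left _ hdvd
    · apply Finset.dvd_sum
      intro θ _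
      rw [hr]
      show p ^ (s + 1) ∣ (if θ ∈ b ∧ (charDegree (θ : H → ℂ)).factorization p ≠ s then
          charDegree (θ : H → ℂ) * c θ else 0)
      by_cases hθ : θ ∈ b ∧ (charDegree (θ : H → ℂ)).factorization p ≠ s
      · rw [if_pos hθ]
        apply Dvd.dvd.mul_right
        have h3 := hmin θ hθ.1
        have h4 : s + 1 ≤ (charDegree (θ : H → ℂ)).factorization p := by
          have := hθ.2
          omega
        exact (hp.pow_dvd_iff_le_factorization
          (Cfsg.Agent.Lib.Helper24.CharBasic.irr_degree_pos θ.2).ne').mpr h4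
      · rw [if_neg hθ]
        exact dvd_zero _
  have hnd2 : ¬ p ∣ ∑ θ ∈ Finset.univ.filter
      (fun θ : IrrCharacter H => ∀ x : (P₁ : Subgroup T), x • θ = θ), f θ := by
    intro h
    exact hnd (Nat.modEq_zero_iff_dvd.mp (hwfp.trans (Nat.modEq_zero_iff_dvd.mpr h)))
  have hne : ∑ θ ∈ Finset.univ.filter
      (fun θ : IrrCharacter H => ∀ x : (P₁ : Subgroup T), x • θ = θ), f θ ≠ 0 := by
    intro h0
    rw [h0] at hnd2
    exact hnd2 (dvd_zero _)
  obtain ⟨θ₀, hθ₀, hfθ₀⟩ := Finset.exists_ne_zero_of_sum_ne_zero hne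
  have hfix := (Finset.mem_filter.mp hθ₀).2
  have hcond : θ₀ ∈ b ∧ (charDegree (θ₀ : H → ℂ)).factorization p = s := by
    by_contra hcon
    apply hfθ₀
    rw [hf]
    show (if θ₀ ∈ b ∧ (charDegree (θ₀ : H → ℂ)).factorization p = s then
        (charDegree (θ₀ : H → ℂ) / p ^ s) * c θ₀ else 0) = 0
    rw [if_neg hcon]
  refine ⟨θ₀, hcond.1, ?_, fun x => hfix x⟩
  unfold blockHeight
  apply Nat.sub_eq_zero_of_le
  rw [hcond.2]
  apply le_csInf
  · exact ⟨_, ⟨ψ₀, hψ₀, rfl⟩⟩
  · rintro _ ⟨χ, hχ, rfl⟩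
    exact hmin χ hχ

/-- A block of a normal subgroup has a character of height zero whose stabilizer in the
stabilizer `T` of the block has index prime to `p`. -/
theorem exists_height_zero_sylow_stable {p : ℕ} [Fact p.Prime] (hM : IsPModular p M)
    (H : Subgroup G) [hH : H.Normal] (b : Set (IrrCharacter H)) (hb : IsPBlock M b)
    (T : Subgroup G)
    (hT : ∀ g : G, g ∈ T ↔ ∀ θ ∈ b, ∀ θ' : IrrCharacter H,
      (∀ h h' : H, (h' : G) = g * h * g⁻¹ → (θ' : H → ℂ) h' = (θ : H → ℂ) h) → θ' ∈ b) :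
    ∃ θ ∈ b, blockHeight p b (θ : H → ℂ) = 0 ∧ ∃ S : Subgroup G, S ≤ T ∧
      (∀ g : G, g ∈ S ↔ (g ∈ T ∧
        ∀ h h' : H, (h' : G) = g * h * g⁻¹ → (θ : H → ℂ) h' = (θ : H → ℂ) h)) ∧
      ¬ p ∣ S.relIndex T := by
  have hT' : ∀ g ∈ T, ∀ θ ∈ b, irrConj H g θ ∈ b := fun g hg θ hθ =>
    (hT g).mp hg θ hθ (irrConj H g θ) (fun h h' hh => irrConj_apply H g θ h h' hh)
  obtain ⟨P₁⟩ := (inferInstance : Nonempty (Sylow p T))
  obtain ⟨θ, hθb, hht, hfix⟩ := exists_height_zero_fixed hM H b hb T hT' P₁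
  refine ⟨θ, hθb, hht, T ⊓ irrStab H θ, inf_le_left, ?_, ?_⟩
  · intro g
    rw [Subgroup.mem_inf, mem_irrStab_iff]
  · have hle : (P₁ : Subgroup T) ≤ (T ⊓ irrStab H θ).subgroupOf T := by
      intro x hx
      rw [Subgroup.mem_subgroupOf, Subgroup.mem_inf]
      exact ⟨x.2, hfix ⟨x, hx⟩⟩
    have h1 := Subgroup.index_dvd_of_le hle
    intro hdvd
    exact P₁.not_dvd_index (dvd_trans hdvd h1)

end Cfsg.Agent.Lib.Helper6
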