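import Mathlib
import Cfsg.Agent.Lib.Helper1.CharComplete
import Cfsg.Agent.Lib.Helper1.CharInd
import Cfsg.Agent.Lib.Helper1.CharReg
import Cfsg.Agent.Lib.Helper1.CharMore

set_option autoImplicit false

/-!
# Restriction multiplicities to a self-centralizing subgroup of prime order

Let `P` be a subgroup of prime order `p` of the finite group `G` such that every nonidentity
element of `P` has centralizer `P`.  This file computes the Gram matrix of the restriction
multiplicities `[ψ_P, lam]` (`ψ ∈ Irr G`, `lam ∈ Irr P`) from the second orthogonality relation.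
-/

namespace Cfsg.Agent.Lib.Helper6.TIPrime

open Cfsg Cfsg.Agent.Lib.Helper1
open scoped ComplexConjugate

universe u

variable {G : Type u} [Group G] [Fintype G]

/-- The restriction multiplicity `[ψ_P, α]`. -/
noncomputable def mult (P : Subgroup G) [Fintype P] (ψ : G → ℂ) (α : P → ℂ) : ℂ :=
  classInner (fun x : P => ψ x) α

open Classical in
/-- The conjugate of a function on `P` by an element of `G`. -/
noncomputable def cj (P : Subgroup G) (g : G) (β : P → ℂ) (x : P) : ℂ :=
  if h : g * (x : G) * g⁻¹ ∈ P then β ⟨g * x * g⁻¹, h⟩ else 0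

open Classical in
theorem gram_general (P : Subgroup G) [Fintype P] [Fintype (IrrCharacter G)] (α β : P → ℂ) :
    ∑ ψ : IrrCharacter G, mult P (ψ : G → ℂ) α * conj (mult P (ψ : G → ℂ) β) =
      ((Nat.card P : ℂ)⁻¹) ^ 2 * ∑ x : P, ∑ y : P, conj (α x) * β y *
        (if IsConj (x : G) (y : G) then
          (Nat.card (Subgroup.centralizer ({(x : G)} : Set G)) : ℂ) else 0) := by
  have h1 : ∀ ψ : IrrCharacter G, mult P (ψ : G → ℂ) α * conj (mult P (ψ : G → ℂ) β) =
      ((Nat.card P : ℂ)⁻¹) ^ 2 * ∑ x : P, ∑ y : P, conj (α x) * β y *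
        ((ψ : G → ℂ) x * conj ((ψ : G → ℂ) y)) := by
    intro ψ
    simp only [mult, classInner, map_mul, map_inv₀, map_natCast, map_sum, Complex.conj_conj]
    have : ∀ a b d : ℂ, a * b * (a * d) = a ^ 2 * (b * d) := by intros; ring
    rw [this, Finset.sum_mul_sum]
    congr 1
    refine Finset.sum_congr rfl fun x _ => Finset.sum_congr rfl fun y _ => ?_
    ring
  rw [Finset.sum_congr rfl fun ψ _ => h1 ψ, ← Finset.mul_sum]
  congr 1
  rw [Finset.sum_comm]
  refine Finset.sum_congr rfl fun x _ => ?_
  rw [Finset.sum_comm]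
  refine Finset.sum_congr rfl fun y _ => ?_
  rw [← Finset.mul_sum, col_orth]

/-- The hypotheses: `P` has odd prime order `p`, nonidentity elements of `P` have centralizer
inside `P`, and the normalizer of `P` has order `p * e`. -/
structure TIHyp (P : Subgroup G) (p e : ℕ) : Prop where
  prime : p.Prime
  odd : p ≠ 2
  card : Nat.card P = p
  cent : ∀ x ∈ P, x ≠ 1 → ∀ g : G, g * x = x * g → g ∈ P
  norm : Nat.card (Subgroup.normalizer (P : Set G)) = p * e

variable {P : Subgroup G} {p e : ℕ}

omit [Fintype G] in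
theorem TIHyp.comm (h : TIHyp P p e) : ∀ x ∈ P, ∀ y ∈ P, x * y = y * x := by
  intro x hx y hy
  have := Fact.mk h.prime
  have hc := isCyclic_of_prime_card (α := P) h.card
  let _ := IsCyclic.commGroup (α := P)
  exact congrArg Subtype.val (mul_comm (⟨x, hx⟩ : P) ⟨y, hy⟩)

omit [Fintype G] in
theorem TIHyp.mem_zpowers (h : TIHyp P p e) {x : G} (hx : x ∈ P) (hx1 : x ≠ 1) {z : G}
    (hz : z ∈ P) : ∃ k : ℤ, x ^ k = z := by
  have := Fact.mk h.prime
  have h1 : (⟨x, hx⟩ : P) ≠ 1 := fun h2 => hx1 (congrArg Subtype.val h2)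
  have h2 := zpowers_eq_top_of_prime_card (G := P) h.card h1
  have h3 : (⟨z, hz⟩ : P) ∈ Subgroup.zpowers (⟨x, hx⟩ : P) := by rw [h2]; trivial
  obtain ⟨k, hk⟩ := Subgroup.mem_zpowers_iff.mp h3
  exact ⟨k, by simpa using congrArg Subtype.val hk⟩

theorem TIHyp.mem_normalizer (h : TIHyp P p e) {x g : G} (hx : x ∈ P) (hx1 : x ≠ 1)
    (hy : g * x * g⁻¹ ∈ P) : g ∈ Subgroup.normalizer (P : Set G) := by
  rw [Subgroup.mem_normalizer_iff]
  intro z
  constructor
  · intro hz
    obtain ⟨k, rfl⟩ := h.mem_zpowers hx hx1 hz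
    rw [← conj_zpow]
    exact P.zpow_mem hy k
  · intro hz
    have hy1 : g * x * g⁻¹ ≠ 1 := by
      intro h1
      apply hx1
      have : x = g⁻¹ * (g * x * g⁻¹) * g := by group
      rw [this, h1]; group
    obtain ⟨k, hk⟩ := h.mem_zpowers hy hy1 hz
    rw [conj_zpow] at hk
    have : x ^ k = z := by
      have h2 := congrArg (fun t => g⁻¹ * t * g) hk
      simpa [mul_assoc] using h2
    rw [← this]
    exact P.zpow_mem hx k

theorem TIHyp.card_centralizer (h : TIHyp P p e) {x : G} (hx : x ∈ P) (hx1 : x ≠ 1) :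
    Nat.card (Subgroup.centralizer ({x} : Set G)) = p := by
  have : Subgroup.centralizer ({x} : Set G) = P := by
    ext g
    rw [Subgroup.mem_centralizer_iff]
    constructor
    · intro hg
      exact h.cent x hx hx1 g (hg x rfl).symm
    · intro hg y hy
      rw [Set.mem_singleton_iff] at hy
      subst hy
      exact h.comm y hx g hg
  rw [this, h.card]

open Classical in
theorem TIHyp.card_conj (h : TIHyp P p e) {x y : G} (hx : x ∈ P) (hx1 : x ≠ 1) :
    (Finset.univ.filter (fun n : G =>
      n ∈ Subgroup.normalizer (P : Set G) ∧ n * x * n⁻¹ = y)).card =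
      if IsConj x y ∧ y ∈ P then p else 0 := by
  split_ifs with hc
  · obtain ⟨hc, hy⟩ := hc
    obtain ⟨g, hg⟩ := isConj_iff.mp hc
    have : Fintype P := Fintype.ofFinite P
    have hinj : Function.Injective (fun z : P => g * (z : G)) := by
      intro a b hab
      exact Subtype.ext (mul_left_cancel hab)
    have hset : Finset.univ.filter (fun n : G =>
        n ∈ Subgroup.normalizer (P : Set G) ∧ n * x * n⁻¹ = y) =
        Finset.image (fun z : P => g * (z : G)) Finset.univ := by
      ext n
      simp only [Finset.mem_filter, Finset.mem_univ, true_and, Finset.mem_image]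
      constructor
      · rintro ⟨_, hn⟩
        have h1 : g⁻¹ * n * x = x * (g⁻¹ * n) := by
          have h2 : n * x * n⁻¹ = g * x * g⁻¹ := by rw [hn, hg]
          have h3 := congrArg (fun t => g⁻¹ * t * n) h2
          simp only [mul_assoc, inv_mul_cancel, mul_one, inv_mul_cancel_left] at h3
          rw [mul_assoc, h3]
        exact ⟨⟨g⁻¹ * n, h.cent x hx hx1 _ h1⟩, by simp⟩
      · rintro ⟨z, rfl⟩
        have h1 : g * (z : G) * x * (g * (z : G))⁻¹ = y := by
          rw [← hg, mul_inv_rev]
          have := h.comm z z.2 x hx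
          calc g * (z : G) * x * ((z : G)⁻¹ * g⁻¹) = g * ((z : G) * x) * (z : G)⁻¹ * g⁻¹ := by group
            _ = g * (x * (z : G)) * (z : G)⁻¹ * g⁻¹ := by rw [this]
            _ = g * x * g⁻¹ := by group
        refine ⟨h.mem_normalizer hx hx1 ?_, h1⟩
        rw [h1]; exact hy
    rw [hset, Finset.card_image_of_injective _ hinj, Finset.card_univ, ← Nat.card_eq_fintype_card,
      h.card]
  · rw [Finset.card_eq_zero, Finset.filter_eq_empty_iff]
    rintro n - ⟨hn, hn2⟩
    apply hc
    refine ⟨isConj_iff.mpr ⟨n, hn2⟩, ?_⟩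
    rw [← hn2]
    exact (Subgroup.mem_normalizer_iff.mp hn x).mp hx

open Classical in
theorem TIHyp.sum_cj (h : TIHyp P p e) [Fintype P] (β : P → ℂ) {x : P} (hx1 : x ≠ 1) :
    ∑ n ∈ Finset.univ.filter (fun n : G => n ∈ Subgroup.normalizer (P : Set G)), cj P n β x =
      (p : ℂ) * ∑ y : P, if IsConj (x : G) (y : G) then β y else 0 := by
  have hx1' : (x : G) ≠ 1 := fun h2 => hx1 (Subtype.ext h2)
  have h1 : ∀ n ∈ Finset.univ.filter (fun n : G => n ∈ Subgroup.normalizer (P : Set G)),
      cj P n β x = ∑ y : P, if n * (x : G) * n⁻¹ = (y : G) then β y else 0 := by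
    intro n hn
    rw [Finset.mem_filter] at hn
    have hmem : n * (x : G) * n⁻¹ ∈ P := (Subgroup.mem_normalizer_iff.mp hn.2 x).mp x.2
    rw [cj, dif_pos hmem]
    rw [Finset.sum_eq_single (⟨n * (x : G) * n⁻¹, hmem⟩ : P)]
    · simp
    · intro b _ hb
      rw [if_neg]
      intro h2
      exact hb (Subtype.ext h2.symm)
    · intro h2; exact absurd (Finset.mem_univ _) h2
  rw [Finset.sum_congr rfl h1, Finset.sum_comm, Finset.mul_sum]
  refine Finset.sum_congr rfl fun y _ => ?_
  rw [← Finset.sum_filter, Finset.filter_filter, Finset.sum_const, h.card_conj x.2 hx1']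
  by_cases hc : IsConj (x : G) (y : G)
  · rw [if_pos ⟨hc, y.2⟩, if_pos hc]; simp
  · rw [if_neg (fun h2 => hc h2.1), if_neg hc]; simp

omit [Fintype G] in
/-- Conjugation by a normalizing element as an automorphism of `P`. -/
def conjEquiv (P : Subgroup G) (n : G) (hn : n ∈ Subgroup.normalizer (P : Set G)) : P ≃* P where
  toFun x := ⟨n * x * n⁻¹, (Subgroup.mem_normalizer_iff.mp hn x).mp x.2⟩
  invFun x := ⟨n⁻¹ * x * n, by
    have := (Subgroup.mem_normalizer_iff.mp hn (n⁻¹ * x * n)).mpr (by simp [mul_assoc])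
    exact this⟩
  left_inv x := by ext; simp [mul_assoc]
  right_inv x := by ext; simp [mul_assoc]
  map_mul' x y := by ext; simp [mul_assoc]

omit [Fintype G] in
theorem cj_eq_comp (P : Subgroup G) (n : G) (hn : n ∈ Subgroup.normalizer (P : Set G))
    (β : P → ℂ) : cj P n β = β ∘ conjEquiv P n hn := by
  funext x
  have hmem : n * (x : G) * n⁻¹ ∈ P := (Subgroup.mem_normalizer_iff.mp hn x).mp x.2
  rw [cj, dif_pos hmem]
  rfl

theorem cj_irr {n : G} (hn : n ∈ Subgroup.normalizer (P : Set G)) {mu : P → ℂ}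
    (hmu : IsIrrCharacter P mu) : IsIrrCharacter P (cj P n mu) := by
  rw [cj_eq_comp P n hn]
  exact IsIrrCharacter.comp_mulEquiv hmu _

omit [Fintype G] in
theorem cj_one (P : Subgroup G) (n : G) (β : P → ℂ) : cj P n β 1 = β 1 := by
  have hmem : n * ((1 : P) : G) * n⁻¹ ∈ P := by simp
  rw [cj, dif_pos hmem]
  congr 1
  ext; simp

open Classical in
theorem card_normalizer_filter (h : TIHyp P p e) :
    (Finset.univ.filter (fun n : G => n ∈ Subgroup.normalizer (P : Set G))).card = p * e := by
  rw [← h.norm, Nat.card_eq_fintype_card, ← Fintype.card_subtype]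

theorem TIHyp.irr_one (h : TIHyp P p e) {lam : P → ℂ} (hlam : IsIrrCharacter P lam) :
    lam 1 = 1 :=
  irr_degree_one_of_comm (fun a b => Subtype.ext (h.comm a a.2 b b.2)) hlam

open Classical in
theorem TIHyp.gram (h : TIHyp P p e) [Fintype P] [Fintype (IrrCharacter G)] {lam mu : P → ℂ}
    (hlam : IsIrrCharacter P lam) (hmu : IsIrrCharacter P mu) :
    ∑ ψ : IrrCharacter G, mult P (ψ : G → ℂ) lam * conj (mult P (ψ : G → ℂ) mu) =
      ((Nat.card G : ℂ) - ((p * e : ℕ) : ℂ)) / (p : ℂ) ^ 2 +
        ((Finset.univ.filter (fun n : G =>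
          n ∈ Subgroup.normalizer (P : Set G) ∧ cj P n mu = lam)).card : ℂ) / p := by
  have hp0 : (p : ℂ) ≠ 0 := by exact_mod_cast h.prime.ne_zero
  have hl1 : lam 1 = 1 := h.irr_one hlam
  have hm1 : mu 1 = 1 := h.irr_one hmu
  rw [gram_general, h.card]
  have hx : ∀ x : P, ∑ y : P, conj (lam x) * mu y *
      (if IsConj (x : G) (y : G) then
        (Nat.card (Subgroup.centralizer ({(x : G)} : Set G)) : ℂ) else 0) =
      conj (lam x) * ∑ n ∈ Finset.univ.filter
        (fun n : G => n ∈ Subgroup.normalizer (P : Set G)), cj P n mu x +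
      (if x = 1 then (Nat.card G : ℂ) - ((p * e : ℕ) : ℂ) else 0) := by
    intro x
    split_ifs with hx1
    · subst hx1
      rw [Finset.sum_eq_single (1 : P)]
      · have hcent : Subgroup.centralizer ({((1 : P) : G)} : Set G) = ⊤ := by
          ext g; simp [Subgroup.mem_centralizer_iff]
        rw [if_pos (by simp), hcent, Subgroup.card_top, hl1, hm1]
        have : ∑ n ∈ Finset.univ.filter
            (fun n : G => n ∈ Subgroup.normalizer (P : Set G)), cj P n mu 1 =
            ((p * e : ℕ) : ℂ) := by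
          rw [Finset.sum_congr rfl fun n _ => (cj_one P n mu).trans hm1, Finset.sum_const,
            card_normalizer_filter h]
          simp
        rw [this]
        simp
      · intro b _ hb
        rw [if_neg, mul_zero]
        intro hc
        apply hb
        have : (b : G) = 1 := by
          have h2 : IsConj (1 : G) (b : G) := by simpa using hc
          exact isConj_one_left.mp h2.symm
        exact Subtype.ext this
      · intro h2; exact absurd (Finset.mem_univ _) h2
    · rw [h.sum_cj mu hx1, add_zero, Finset.mul_sum, Finset.mul_sum]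
      refine Finset.sum_congr rfl fun y _ => ?_
      rw [h.card_centralizer x.2 (fun h2 => hx1 (Subtype.ext h2))]
      split_ifs <;> ring
  rw [Finset.sum_congr rfl fun x _ => hx x, Finset.sum_add_distrib, Finset.sum_ite_eq',
    if_pos (Finset.mem_univ _)]
  have hswap : ∑ x : P, conj (lam x) * ∑ n ∈ Finset.univ.filter
        (fun n : G => n ∈ Subgroup.normalizer (P : Set G)), cj P n mu x =
      (p : ℂ) * ((Finset.univ.filter (fun n : G =>
          n ∈ Subgroup.normalizer (P : Set G) ∧ cj P n mu = lam)).card : ℂ) := by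
    have h1 : ∀ x : P, conj (lam x) * ∑ n ∈ Finset.univ.filter
        (fun n : G => n ∈ Subgroup.normalizer (P : Set G)), cj P n mu x =
        ∑ n ∈ Finset.univ.filter
        (fun n : G => n ∈ Subgroup.normalizer (P : Set G)), cj P n mu x * conj (lam x) := by
      intro x
      rw [Finset.mul_sum]
      exact Finset.sum_congr rfl fun n _ => mul_comm _ _
    rw [Finset.sum_congr rfl fun x _ => h1 x, Finset.sum_comm]
    have h2 : ∀ n ∈ Finset.univ.filter (fun n : G => n ∈ Subgroup.normalizer (P : Set G)),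
        ∑ x : P, cj P n mu x * conj (lam x) = (p : ℂ) * (if cj P n mu = lam then 1 else 0) := by
      intro n hn
      rw [Finset.mem_filter] at hn
      have h3 := classInner_irr (cj_irr hn.2 hmu) hlam
      rw [← h3, classInner, h.card, ← mul_assoc, mul_inv_cancel₀ hp0, one_mul]
    rw [Finset.sum_congr rfl h2, ← Finset.mul_sum, Finset.sum_boole, Finset.filter_filter]
  rw [hswap]
  field_simp
  ring

open Classical in
/-- The number of normalizer elements conjugating `mu` to `lam`. -/
noncomputable def kk (P : Subgroup G) (lam mu : P → ℂ) : ℕ :=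
  (Finset.univ.filter (fun n : G =>
    n ∈ Subgroup.normalizer (P : Set G) ∧ cj P n mu = lam)).card

theorem TIHyp.gram' (h : TIHyp P p e) [Fintype P] [Fintype (IrrCharacter G)] {lam mu : P → ℂ}
    (hlam : IsIrrCharacter P lam) (hmu : IsIrrCharacter P mu) :
    ∑ ψ : IrrCharacter G, mult P (ψ : G → ℂ) lam * conj (mult P (ψ : G → ℂ) mu) =
      ((Nat.card G : ℂ) - ((p * e : ℕ) : ℂ)) / (p : ℂ) ^ 2 + (kk P lam mu : ℂ) / p := by
  classical
  rw [h.gram hlam hmu]
  unfold kk
  congr!

end Cfsg.Agent.Lib.Helper6.TIPrime
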