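import Mathlib

set_option autoImplicit false

/-!
# Coherence combinatorics

A family of integer vectors whose pairwise differences are `0` or of squared length `2` with
weighted sum `0` (for a positive weight) is of the form `g + ε δ_{χ a}` for a common sign `ε`.
-/

namespace Cfsg.Agent.Lib.Helper6.TIPrime

variable {I : Type*} [Fintype I] [DecidableEq I]

/-- The point mass at `x`. -/
def dl (x : I) (ψ : I) : ℤ := if ψ = x then 1 else 0

omit [Fintype I] in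
@[simp] theorem dl_self (x : I) : dl x x = 1 := by simp [dl]

omit [Fintype I] in
theorem dl_ne {x ψ : I} (h : ψ ≠ x) : dl x ψ = 0 := by simp [dl, h]

omit [Fintype I] in
theorem dl_nonneg (x ψ : I) : 0 ≤ dl x ψ := by unfold dl; split_ifs <;> omega

omit [Fintype I] in
theorem dl_le_one (x ψ : I) : dl x ψ ≤ 1 := by unfold dl; split_ifs <;> omega

omit [Fintype I] in
theorem dl_eq_one {x ψ : I} (h : dl x ψ = 1) : ψ = x := by
  unfold dl at h; split_ifs at h with h1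
  · exact h1
  · omega

/-- An integer vector of squared length `2` and weighted sum `0` is a difference of two point
masses at points of equal weight. -/
theorem two_point (D w : I → ℤ) (hw : ∀ ψ, 0 < w ψ) (h2 : ∑ ψ, D ψ ^ 2 = 2)
    (h0 : ∑ ψ, w ψ * D ψ = 0) :
    ∃ x y, x ≠ y ∧ w x = w y ∧ ∀ ψ, D ψ = dl x ψ - dl y ψ := by
  have hpos : ∃ x, 0 < D x := by
    by_contra hcon
    simp only [not_exists, not_lt] at hcon
    have h1 : ∀ ψ ∈ Finset.univ, w ψ * D ψ ≤ 0 := fun ψ _ =>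
      mul_nonpos_of_nonneg_of_nonpos (hw ψ).le (hcon ψ)
    have h3 := (Finset.sum_eq_zero_iff_of_nonpos h1).mp h0
    have h4 : ∀ ψ, D ψ = 0 := by
      intro ψ
      have := h3 ψ (Finset.mem_univ _)
      rcases mul_eq_zero.mp this with h5 | h5
      · exact absurd h5 (hw ψ).ne'
      · exact h5
    rw [Finset.sum_eq_zero (fun ψ _ => by rw [h4 ψ]; norm_num)] at h2
    norm_num at h2
  have hneg : ∃ y, D y < 0 := by
    by_contra hcon
    simp only [not_exists, not_lt] at hcon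
    have h1 : ∀ ψ ∈ Finset.univ, 0 ≤ w ψ * D ψ := fun ψ _ => mul_nonneg (hw ψ).le (hcon ψ)
    have h3 := (Finset.sum_eq_zero_iff_of_nonneg h1).mp h0
    have h4 : ∀ ψ, D ψ = 0 := by
      intro ψ
      have := h3 ψ (Finset.mem_univ _)
      rcases mul_eq_zero.mp this with h5 | h5
      · exact absurd h5 (hw ψ).ne'
      · exact h5
    rw [Finset.sum_eq_zero (fun ψ _ => by rw [h4 ψ]; norm_num)] at h2
    norm_num at h2
  obtain ⟨x, hx⟩ := hpos
  obtain ⟨y, hy⟩ := hneg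
  have hxy : x ≠ y := by rintro rfl; omega
  have hy' : y ∈ Finset.univ.erase x := Finset.mem_erase.mpr ⟨hxy.symm, Finset.mem_univ _⟩
  have e1 := Finset.add_sum_erase Finset.univ (fun ψ => D ψ ^ 2) (Finset.mem_univ x)
  have e2 := Finset.add_sum_erase (Finset.univ.erase x) (fun ψ => D ψ ^ 2) hy'
  have hrest : 0 ≤ ∑ ψ ∈ (Finset.univ.erase x).erase y, D ψ ^ 2 :=
    Finset.sum_nonneg fun ψ _ => sq_nonneg _
  beta_reduce at e1 e2
  have hx1 : D x = 1 := by nlinarith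
  have hy1 : D y = -1 := by nlinarith
  have hr0 : ∑ ψ ∈ (Finset.univ.erase x).erase y, D ψ ^ 2 = 0 := by
    have hx2 : D x ^ 2 = 1 := by rw [hx1]; norm_num
    have hy2 : D y ^ 2 = 1 := by rw [hy1]; norm_num
    linarith
  have hz : ∀ ψ, ψ ≠ x → ψ ≠ y → D ψ = 0 := by
    intro ψ h1 h3
    have := (Finset.sum_eq_zero_iff_of_nonneg (fun ψ _ => sq_nonneg (D ψ))).mp hr0 ψ
      (Finset.mem_erase.mpr ⟨h3, Finset.mem_erase.mpr ⟨h1, Finset.mem_univ _⟩⟩)
    exact pow_eq_zero_iff (two_ne_zero) |>.mp this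
  have hform : ∀ ψ, D ψ = dl x ψ - dl y ψ := by
    intro ψ
    by_cases h1 : ψ = x
    · subst h1; rw [dl_self, dl_ne hxy, hx1]; norm_num
    · by_cases h3 : ψ = y
      · subst h3; rw [dl_self, dl_ne h1, hy1]; norm_num
      · rw [dl_ne h1, dl_ne h3, hz ψ h1 h3]; norm_num
  refine ⟨x, y, hxy, ?_, hform⟩
  have e3 := Finset.add_sum_erase Finset.univ (fun ψ => w ψ * D ψ) (Finset.mem_univ x)
  have e4 := Finset.add_sum_erase (Finset.univ.erase x) (fun ψ => w ψ * D ψ) hy'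
  have hr1 : ∑ ψ ∈ (Finset.univ.erase x).erase y, w ψ * D ψ = 0 := by
    apply Finset.sum_eq_zero
    intro ψ hψ
    rw [Finset.mem_erase, Finset.mem_erase] at hψ
    rw [hz ψ hψ.2.1 hψ.1, mul_zero]
  beta_reduce at e3 e4
  rw [hx1] at e3
  rw [hy1] at e4
  linarith

omit [Fintype I] in
theorem pair_lemma {x y x' y' : I} (hxy : x ≠ y) (hxy' : x' ≠ y')
    (hE : (∀ ψ, dl x ψ - dl y ψ - (dl x' ψ - dl y' ψ) = 0) ∨
      ∃ u v, u ≠ v ∧ ∀ ψ, dl x ψ - dl y ψ - (dl x' ψ - dl y' ψ) = dl u ψ - dl v ψ) :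
    x = x' ∨ y = y' := by
  by_contra hcon
  simp only [not_or] at hcon
  obtain ⟨h1, h2⟩ := hcon
  rcases hE with hE | ⟨u, v, huv, hE⟩
  · have h3 := hE x
    rw [dl_self, dl_ne hxy, dl_ne h1] at h3
    have := dl_nonneg y' x
    omega
  · have h3 := hE x
    rw [dl_self, dl_ne hxy, dl_ne h1] at h3
    have h4 := dl_nonneg y' x
    have h5 := dl_le_one u x
    have h6 := dl_nonneg v x
    have h7 : dl u x = 1 := by omega
    have h8 : dl y' x = 0 := by omega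
    have hxu : x = u := dl_eq_one h7
    have hxy2 : x ≠ y' := by
      rintro rfl
      rw [dl_self] at h8
      omega
    have h9 := hE y'
    rw [dl_self, dl_ne hxy2.symm, dl_ne (Ne.symm h2), dl_ne hxy'.symm] at h9
    have h10 := dl_le_one u y'
    have h11 := dl_nonneg v y'
    have h12 : dl u y' = 1 := by omega
    exact hxy2 ((dl_eq_one h12).trans hxu.symm).symm

/-- Coherence: a family of integer vectors with pairwise differences `0` or of squared length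
`2`, and of weighted sum `0`, has the form `g + ε δ_{χ a}`. -/
theorem coherence [Nonempty I] {L : Type*} (Λ : Set L) (F : L → I → ℤ) (w : I → ℤ)
    (hw : ∀ ψ, 0 < w ψ)
    (h1 : ∀ a ∈ Λ, ∀ b ∈ Λ, (∀ ψ, F a ψ = F b ψ) ∨ ∑ ψ, (F a ψ - F b ψ) ^ 2 = 2)
    (h2 : ∀ a ∈ Λ, ∀ b ∈ Λ, ∑ ψ, w ψ * (F a ψ - F b ψ) = 0) :
    ∃ (g : I → ℤ) (ε : ℤ) (χ : L → I), (ε = 1 ∨ ε = -1) ∧
      ∀ a ∈ Λ, ∀ ψ, F a ψ = g ψ + ε * dl (χ a) ψ := by
  classical
  have K : ∀ a ∈ Λ, ∀ b ∈ Λ, (∀ ψ, F a ψ = F b ψ) ∨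
      ∃ x y, x ≠ y ∧ ∀ ψ, F a ψ - F b ψ = dl x ψ - dl y ψ := by
    intro a ha b hb
    rcases h1 a ha b hb with h | h
    · exact Or.inl h
    · obtain ⟨x, y, hxy, -, hf⟩ := two_point (fun ψ => F a ψ - F b ψ) w hw h (h2 a ha b hb)
      exact Or.inr ⟨x, y, hxy, hf⟩
  by_cases hall : ∀ a ∈ Λ, ∀ b ∈ Λ, ∀ ψ, F a ψ = F b ψ
  · by_cases hne : Λ.Nonempty
    · obtain ⟨a₀, ha₀⟩ := hne
      refine ⟨fun ψ => F a₀ ψ - dl (Classical.arbitrary I) ψ, 1, fun _ => Classical.arbitrary I,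
        Or.inl rfl, ?_⟩
      intro a ha ψ
      rw [hall a ha a₀ ha₀ ψ]
      ring
    · refine ⟨fun _ => 0, 1, fun _ => Classical.arbitrary I, Or.inl rfl, ?_⟩
      intro a ha
      exact absurd ⟨a, ha⟩ hne
  · simp only [not_forall] at hall
    obtain ⟨a₁, ha₁, a₀, ha₀, ψ₁, hψ₁⟩ := hall
    obtain ⟨pa, qa, hpq, hbase⟩ : ∃ x y, x ≠ y ∧ ∀ ψ, F a₁ ψ - F a₀ ψ = dl x ψ - dl y ψ := by
      rcases K a₁ ha₁ a₀ ha₀ with h | h
      · exact absurd (h ψ₁) hψ₁
      · exact h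
    -- Step 3
    have S3 : ∀ a ∈ Λ, ∀ x y, x ≠ y → (∀ ψ, F a ψ - F a₀ ψ = dl x ψ - dl y ψ) →
        x = pa ∨ y = qa := by
      intro a ha x y hxy hf
      apply pair_lemma hxy hpq
      rcases K a ha a₁ ha₁ with h | ⟨u, v, huv, h⟩
      · left
        intro ψ
        rw [← hf ψ, ← hbase ψ, h ψ]; ring
      · right
        refine ⟨u, v, huv, fun ψ => ?_⟩
        rw [← hf ψ, ← hbase ψ, ← h ψ]; ring
    have S4 : (∀ a ∈ Λ, (∀ ψ, F a ψ = F a₀ ψ) ∨
          ∃ y, y ≠ pa ∧ ∀ ψ, F a ψ - F a₀ ψ = dl pa ψ - dl y ψ) ∨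
        (∀ a ∈ Λ, (∀ ψ, F a ψ = F a₀ ψ) ∨
          ∃ x, x ≠ qa ∧ ∀ ψ, F a ψ - F a₀ ψ = dl x ψ - dl qa ψ) := by
      by_contra hcon
      obtain ⟨hnA, hnB⟩ := not_or.mp hcon
      obtain ⟨a, hnA⟩ := not_forall.mp hnA
      obtain ⟨ha, hnA⟩ := Classical.not_imp.mp hnA
      obtain ⟨hA1, hA2⟩ := not_or.mp hnA
      obtain ⟨b, hnB⟩ := not_forall.mp hnB
      obtain ⟨hb, hnB⟩ := Classical.not_imp.mp hnB
      obtain ⟨hB1, hB2⟩ := not_or.mp hnB
      -- a has the form (x, qa) with x ≠ pa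
      obtain ⟨x, hxp, hxq, hfa⟩ : ∃ x, x ≠ pa ∧ x ≠ qa ∧
          ∀ ψ, F a ψ - F a₀ ψ = dl x ψ - dl qa ψ := by
        rcases K a ha a₀ ha₀ with h | ⟨x, y, hxy, h⟩
        · exact absurd h hA1
        · rcases S3 a ha x y hxy h with h3 | h3
          · subst h3
            exact absurd ⟨y, Ne.symm hxy, h⟩ hA2
          · subst h3
            refine ⟨x, ?_, hxy, h⟩
            rintro rfl
            exact hA2 ⟨y, Ne.symm hxy, h⟩
      obtain ⟨y', hyq, hyp, hfb⟩ : ∃ y, y ≠ qa ∧ y ≠ pa ∧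
          ∀ ψ, F b ψ - F a₀ ψ = dl pa ψ - dl y ψ := by
        rcases K b hb a₀ ha₀ with h | ⟨x, y, hxy, h⟩
        · exact absurd h hB1
        · rcases S3 b hb x y hxy h with h3 | h3
          · subst h3
            refine ⟨y, ?_, Ne.symm hxy, h⟩
            rintro rfl
            exact hB2 ⟨x, hxy, h⟩
          · subst h3
            exact absurd ⟨x, hxy, h⟩ hB2
      have hfin : x = pa ∨ qa = y' := by
        apply pair_lemma hxq (Ne.symm hyp)
        rcases K a ha b hb with h | ⟨u, v, huv, h⟩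
        · left
          intro ψ
          rw [← hfa ψ, ← hfb ψ, h ψ]; ring
        · right
          refine ⟨u, v, huv, fun ψ => ?_⟩
          rw [← hfa ψ, ← hfb ψ, ← h ψ]; ring
      rcases hfin with h | h
      · exact hxp h
      · exact hyq h.symm
    rcases S4 with hA | hB
    · refine ⟨fun ψ => F a₀ ψ + dl pa ψ, -1,
        fun a => if h : ∃ y, y ≠ pa ∧ ∀ ψ, F a ψ - F a₀ ψ = dl pa ψ - dl y ψ then h.choose else pa,
        Or.inr rfl, ?_⟩
      intro a ha ψ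
      by_cases h : ∃ y, y ≠ pa ∧ ∀ ψ, F a ψ - F a₀ ψ = dl pa ψ - dl y ψ
      · dsimp only
        rw [dif_pos h]
        have := h.choose_spec.2 ψ
        linarith
      · dsimp only
        rw [dif_neg h]
        rcases hA a ha with h3 | h3
        · rw [h3 ψ]; ring
        · exact absurd h3 h
    · refine ⟨fun ψ => F a₀ ψ - dl qa ψ, 1,
        fun a => if h : ∃ x, x ≠ qa ∧ ∀ ψ, F a ψ - F a₀ ψ = dl x ψ - dl qa ψ then h.choose else qa,
        Or.inl rfl, ?_⟩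
      intro a ha ψ
      by_cases h : ∃ x, x ≠ qa ∧ ∀ ψ, F a ψ - F a₀ ψ = dl x ψ - dl qa ψ
      · dsimp only
        rw [dif_pos h]
        have := h.choose_spec.2 ψ
        linarith
      · dsimp only
        rw [dif_neg h]
        rcases hB a ha with h3 | h3
        · rw [h3 ψ]; ring
        · exact absurd h3 h

theorem sum_mul_dl (w : I → ℤ) (x : I) : ∑ ψ, w ψ * dl x ψ = w x := by
  unfold dl
  simp [mul_ite]

omit [Fintype I] in
theorem dl_sq (x ψ : I) : dl x ψ ^ 2 = dl x ψ := by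
  unfold dl; split_ifs <;> norm_num

/-- The structure of the restriction multiplicities, abstractly. -/
theorem structure_lemma {L : Type*} [Fintype L] [DecidableEq L] (o : L) (F : L → I → ℤ)
    (w : I → ℤ) (e p : ℕ) (ψ₀ : I) (hw : ∀ ψ, 0 < w ψ)
    (H1 : ∀ a b, a ≠ o → b ≠ o →
      (∑ ψ, (F a ψ - F b ψ) ^ 2 = 0 ∨ ∑ ψ, (F a ψ - F b ψ) ^ 2 = 2))
    (H2 : ∀ a, a ≠ o → ∑ ψ, (F o ψ - F a ψ) ^ 2 = (e : ℤ) + 1)
    (H3 : ∀ a, a ≠ o → (Finset.univ.filter (fun b => b ≠ o ∧ ∀ ψ, F b ψ = F a ψ)).card = e)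
    (H4 : ∀ a b, ∑ ψ, w ψ * (F a ψ - F b ψ) = 0)
    (H5 : ∀ ψ, w ψ = ∑ a, F a ψ)
    (H6 : F o ψ₀ = 1 ∧ ∀ a, a ≠ o → F a ψ₀ = 0)
    (hcard : Fintype.card L = p) (ht : e < p - 1) :
    ∃ (c : I → ℤ) (ε : ℤ) (X : Finset I) (d : ℤ), (ε = 1 ∨ ε = -1) ∧ X.card * e = p - 1 ∧
      (∀ χ ∈ X, w χ = d) ∧ (∀ χ ∈ X, ∑ ψ, c ψ ^ 2 - 2 * ε * c χ = e) ∧
      ∑ ψ, w ψ * c ψ = ε * d ∧ (∀ ψ, ψ ∉ X → w ψ ≡ c ψ [ZMOD p]) ∧
      (∀ χ ∈ X, w χ ≡ c χ + ε * e [ZMOD p]) ∧ c ψ₀ = 1 ∧ ψ₀ ∉ X := by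
  classical
  have : Nonempty I := ⟨ψ₀⟩
  obtain ⟨g, ε, χ, hε, hF⟩ := coherence {a : L | a ≠ o} F w hw
    (by
      intro a ha b hb
      rcases H1 a b ha hb with h | h
      · left
        intro ψ
        have := (Finset.sum_eq_zero_iff_of_nonneg (fun ψ _ => sq_nonneg (F a ψ - F b ψ))).mp h ψ
          (Finset.mem_univ _)
        have h3 : F a ψ - F b ψ = 0 := pow_eq_zero_iff (two_ne_zero) |>.mp this
        linarith
      · exact Or.inr h)
    (fun a _ b _ => H4 a b)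
  replace hF : ∀ a, a ≠ o → ∀ ψ, F a ψ = g ψ + ε * dl (χ a) ψ := fun a ha => hF a ha
  have hε0 : ε ≠ 0 := by rcases hε with h | h <;> rw [h] <;> norm_num
  have hε2 : ε ^ 2 = 1 := by rcases hε with h | h <;> rw [h] <;> norm_num
  -- f1
  have f1 : ∀ a b, a ≠ o → b ≠ o → (χ b = χ a ↔ ∀ ψ, F b ψ = F a ψ) := by
    intro a b ha hb
    constructor
    · intro h ψ
      rw [hF a ha, hF b hb, h]
    · intro h
      have h1 := h (χ b)
      rw [hF a ha, hF b hb, dl_self] at h1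
      have h2 : dl (χ a) (χ b) = 1 := by
        have : ε * (dl (χ a) (χ b) - 1) = 0 := by linarith
        rcases mul_eq_zero.mp this with h3 | h3
        · exact absurd h3 hε0
        · linarith
      exact dl_eq_one h2
  have f2 : ∀ a, a ≠ o → (Finset.univ.filter (fun b => b ≠ o ∧ χ b = χ a)).card = e := by
    intro a ha
    rw [← H3 a ha]
    congr 1
    ext b
    simp only [Finset.mem_filter, Finset.mem_univ, true_and]
    constructor
    · rintro ⟨hb, h⟩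
      exact ⟨hb, (f1 a b ha hb).mp h⟩
    · rintro ⟨hb, h⟩
      exact ⟨hb, (f1 a b ha hb).mpr h⟩
  have hΛcard : (Finset.univ.erase o).card = p - 1 := by
    rw [Finset.card_erase_of_mem (Finset.mem_univ o), Finset.card_univ, hcard]
  have hmemΛ : ∀ a, a ∈ Finset.univ.erase o ↔ a ≠ o := by
    intro a; simp
  set X : Finset I := (Finset.univ.erase o).image χ with hX
  have hfiber : ∀ x ∈ X, ((Finset.univ.erase o).filter (fun a => χ a = x)).card = e := by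
    intro x hx
    obtain ⟨a, ha, rfl⟩ := Finset.mem_image.mp hx
    rw [← f2 a ((hmemΛ a).mp ha)]
    congr 1
    ext b
    simp
  have f3 : X.card * e = p - 1 := by
    rw [← hΛcard, Finset.card_eq_sum_card_fiberwise (f := χ) (t := X)
      (fun a ha => Finset.mem_image_of_mem χ ha), Finset.sum_congr rfl hfiber, Finset.sum_const,
      smul_eq_mul]
  have hp2 : 1 < Fintype.card L := by omega
  obtain ⟨a₀, ha₀⟩ := Fintype.exists_ne_of_one_lt_card hp2 o
  have f5 : ∀ a, a ≠ o → w (χ a) = w (χ a₀) := by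
    intro a ha
    have h1 := H4 a a₀
    have h2 : ∀ ψ, w ψ * (F a ψ - F a₀ ψ) = ε * (w ψ * dl (χ a) ψ) - ε * (w ψ * dl (χ a₀) ψ) := by
      intro ψ
      rw [hF a ha, hF a₀ ha₀]; ring
    rw [Finset.sum_congr rfl fun ψ _ => h2 ψ, Finset.sum_sub_distrib, ← Finset.mul_sum,
      ← Finset.mul_sum, sum_mul_dl, sum_mul_dl] at h1
    have : ε * (w (χ a) - w (χ a₀)) = 0 := by linarith
    rcases mul_eq_zero.mp this with h3 | h3
    · exact absurd h3 hε0
    · linarith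
  have hXmem : ∀ x ∈ X, ∃ a, a ≠ o ∧ χ a = x := by
    intro x hx
    obtain ⟨a, ha, rfl⟩ := Finset.mem_image.mp hx
    exact ⟨a, (hmemΛ a).mp ha, rfl⟩
  have f6 : ∀ a, a ≠ o → ∑ ψ, (F o ψ - g ψ) ^ 2 - 2 * ε * (F o (χ a) - g (χ a)) = e := by
    intro a ha
    have h1 := H2 a ha
    have h2 : ∀ ψ, (F o ψ - F a ψ) ^ 2 = (F o ψ - g ψ) ^ 2
        - 2 * ε * ((F o ψ - g ψ) * dl (χ a) ψ) + 1 * dl (χ a) ψ := by
      intro ψ
      rw [hF a ha]
      have := dl_sq (χ a) ψ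
      have h3 : (F o ψ - (g ψ + ε * dl (χ a) ψ)) ^ 2 = (F o ψ - g ψ) ^ 2
        - 2 * ε * ((F o ψ - g ψ) * dl (χ a) ψ) + ε ^ 2 * dl (χ a) ψ ^ 2 := by ring
      rw [h3, hε2, this]
    rw [Finset.sum_congr rfl fun ψ _ => h2 ψ, Finset.sum_add_distrib, Finset.sum_sub_distrib,
      ← Finset.mul_sum, sum_mul_dl, sum_mul_dl] at h1
    linarith
  have f7 : ∑ ψ, w ψ * (F o ψ - g ψ) = ε * w (χ a₀) := by
    have h1 := H4 o a₀
    have h2 : ∀ ψ, w ψ * (F o ψ - F a₀ ψ) = w ψ * (F o ψ - g ψ) - ε * (w ψ * dl (χ a₀) ψ) := by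
      intro ψ
      rw [hF a₀ ha₀]; ring
    rw [Finset.sum_congr rfl fun ψ _ => h2 ψ, Finset.sum_sub_distrib, ← Finset.mul_sum,
      sum_mul_dl] at h1
    linarith
  have f8 : ∀ ψ, w ψ = (F o ψ - g ψ) + p * g ψ +
      ε * (((Finset.univ.erase o).filter (fun a => χ a = ψ)).card : ℤ) := by
    intro ψ
    rw [H5 ψ, ← Finset.add_sum_erase Finset.univ (fun a => F a ψ) (Finset.mem_univ o)]
    have h1 : ∀ a ∈ Finset.univ.erase o, F a ψ = g ψ + ε * (if χ a = ψ then 1 else 0) := by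
      intro a ha
      rw [hF a ((hmemΛ a).mp ha)]
      unfold dl
      by_cases h : ψ = χ a
      · rw [if_pos h, if_pos h.symm]
      · rw [if_neg h, if_neg (fun h' => h h'.symm)]
    rw [Finset.sum_congr rfl h1, Finset.sum_add_distrib, Finset.sum_const, ← Finset.mul_sum,
      Finset.sum_boole, hΛcard]
    have hp1 : ((p - 1 : ℕ) : ℤ) = (p : ℤ) - 1 := by
      have : 1 ≤ p := by omega
      push_cast [Nat.cast_sub this]
      ring
    rw [nsmul_eq_mul, hp1]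
    ring
  -- ψ₀
  have hψ₀X : ψ₀ ∉ X := by
    intro hx
    obtain ⟨a, ha, hχ⟩ := hXmem ψ₀ hx
    have hb : ∃ b, b ≠ o ∧ χ b ≠ χ a := by
      by_contra hcon
      simp only [not_exists, not_and, not_not] at hcon
      have h1 := f2 a ha
      have h2 : Finset.univ.filter (fun b => b ≠ o ∧ χ b = χ a) = Finset.univ.erase o := by
        ext b
        simp only [Finset.mem_filter, Finset.mem_univ, true_and, Finset.mem_erase, and_true]
        exact ⟨fun h => h.1, fun h => ⟨h, hcon b h⟩⟩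
      rw [h2, hΛcard] at h1
      omega
    obtain ⟨b, hb, hbne⟩ := hb
    have h1 := H6.2 b hb
    rw [hF b hb, dl_ne (by rw [← hχ]; exact fun h => hbne h.symm)] at h1
    have h2 := H6.2 a ha
    rw [hF a ha, ← hχ, dl_self] at h2
    rw [hχ] at h2
    have : ε = 0 := by linarith
    exact hε0 this
  refine ⟨fun ψ => F o ψ - g ψ, ε, X, w (χ a₀), hε, f3, ?_, ?_, f7, ?_, ?_, ?_, hψ₀X⟩
  · intro x hx
    obtain ⟨a, ha, rfl⟩ := hXmem x hx
    exact f5 a ha
  · intro x hx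
    obtain ⟨a, ha, rfl⟩ := hXmem x hx
    exact f6 a ha
  · intro ψ hψ
    have h1 := f8 ψ
    have h2 : (Finset.univ.erase o).filter (fun a => χ a = ψ) = ∅ := by
      rw [Finset.filter_eq_empty_iff]
      intro a ha h
      exact hψ (h ▸ Finset.mem_image_of_mem χ ha)
    rw [h2, Finset.card_empty] at h1
    rw [Int.modEq_iff_dvd]
    refine ⟨-g ψ, ?_⟩
    rw [h1]; push_cast; ring
  · intro x hx
    have h1 := f8 x
    rw [hfiber x hx] at h1
    rw [Int.modEq_iff_dvd]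
    refine ⟨-g x, ?_⟩
    rw [h1]; ring
  · have h1 := H6.2 a₀ ha₀
    rw [hF a₀ ha₀] at h1
    have h2 : dl (χ a₀) ψ₀ = 0 := by
      apply dl_ne
      intro h
      apply hψ₀X
      rw [h]
      exact Finset.mem_image_of_mem χ ((hmemΛ a₀).mpr ha₀)
    rw [h2] at h1
    show F o ψ₀ - g ψ₀ = 1
    rw [H6.1]
    linarith

end Cfsg.Agent.Lib.Helper6.TIPrime
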